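import Cfsg.Agent.PronPSL.Exists

/-!
Sylow two-subgroups of special linear groups in two-power dimension and their normalisers.
-/

set_option autoImplicit false

namespace CfsgLib.PronPSL

open Matrix

variable {ι : Type*} [Fintype ι] [DecidableEq ι] {F : Type*} [Field F] [Finite F]

variable (ι F) in
/-- Some Sylow two-subgroup has normaliser only itself and the centre. -/
def NS : Prop :=
  ∃ P : Sylow 2 (SpecialLinearGroup ι F),
    ∀ g ∈ Subgroup.normalizer ((P : Subgroup (SpecialLinearGroup ι F)) : Set (SpecialLinearGroup ι F)),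
      g ∈ (P : Subgroup (SpecialLinearGroup ι F)) ⊔ Subgroup.center (SpecialLinearGroup ι F)

theorem ns_of_goodSL {S : Subgroup (GL ι F)} (hS : GoodSL S) : NS ι F := by
  classical
  haveI := Fact.mk Nat.prime_two
  set f : SpecialLinearGroup ι F →* GL ι F := Matrix.SpecialLinearGroup.toGL with hf
  have hinj : Function.Injective f := Matrix.SpecialLinearGroup.toGL_injective
  haveI : Finite (SpecialLinearGroup ι F) :=
    Finite.of_injective (fun a : SpecialLinearGroup ι F => (a : Matrix ι ι F)) Subtype.val_injective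
  set T := S.comap f with hT
  have hTn : ∀ g ∈ Subgroup.normalizer (T : Set (SpecialLinearGroup ι F)),
      f g ∈ Subgroup.normalizer ((S ⊓ sl ι F : Subgroup (GL ι F)) : Set (GL ι F)) := by
    intro g hg
    refine mem_normalizer_of_forall fun s hs => ⟨?_, sl_conj hs.2⟩
    let s' : SpecialLinearGroup ι F := ⟨(s : Matrix ι ι F), mem_sl.1 hs.2⟩
    have hs' : f s' = s := Units.ext rfl
    have := conj_mem_of_normalizer hg (show s' ∈ T by rw [hT, Subgroup.mem_comap, hs']; exact hs.1)
    rw [hT, Subgroup.mem_comap, map_mul, map_mul, map_inv, hs'] at this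
    exact this
  have key : ∀ g ∈ Subgroup.normalizer (T : Set (SpecialLinearGroup ι F)), g ∈ T ⊔ Subgroup.center _ := by
    intro g hg
    obtain ⟨k, m, hm, hkm⟩ := Nat.exists_eq_pow_mul_and_not_dvd (orderOf_pos g).ne' 2 (by norm_num)
    have hmodd : Odd m := Nat.odd_iff.2 (by omega)
    have hu : g ^ m ∈ T := by
      refine Subgroup.mem_comap.2 (hS.maximal _ ⟨k, ?_⟩ (hTn _ (pow_mem hg m)))
      rw [← map_pow, ← pow_mul, mul_comm, ← hkm, pow_orderOf_eq_one, map_one]
    have hw : g ^ 2 ^ k ∈ Subgroup.center (SpecialLinearGroup ι F) := by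
      obtain ⟨c, hc⟩ := hS.odd (f (g ^ 2 ^ k)) (hmodd.of_dvd_nat (orderOf_dvd_of_pow_eq_one (by
        rw [← map_pow, ← pow_mul, ← hkm, pow_orderOf_eq_one, map_one]))) (hTn _ (pow_mem hg _))
      refine Subgroup.mem_center_iff.2 fun x => Subtype.ext ?_
      show x.1 * (f (g ^ 2 ^ k) : Matrix ι ι F) = (f (g ^ 2 ^ k) : Matrix ι ι F) * x.1
      rw [hc, mul_smul_comm, smul_mul_assoc, mul_one, one_mul]
    have hb : IsCoprime ((2 ^ k : ℕ) : ℤ) (m : ℤ) :=
      Nat.Coprime.isCoprime ((Nat.coprime_two_left.2 hmodd).pow_left k)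
    obtain ⟨a, b, hab⟩ := hb
    have e : g = (g ^ m) ^ b * (g ^ 2 ^ k) ^ a := by
      rw [← zpow_natCast g m, ← zpow_natCast g (2 ^ k), ← _root_.zpow_mul, ← _root_.zpow_mul,
        ← _root_.zpow_add, show (m : ℤ) * b + ((2 ^ k : ℕ) : ℤ) * a = 1 by linarith, _root_.zpow_one]
    rw [e]
    exact mul_mem (Subgroup.mem_sup_left (zpow_mem hu b)) (Subgroup.mem_sup_right (zpow_mem hw a))
  have hP : IsPGroup 2 T := hS.two.comap_of_injective f hinj
  obtain ⟨P, hTP⟩ := hP.exists_le_sylow
  have hPT : (P : Subgroup (SpecialLinearGroup ι F)) = T := by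
    refine le_antisymm ?_ hTP
    by_contra hlt
    have hne : T.subgroupOf P ≠ ⊤ := fun h => hlt (Subgroup.subgroupOf_eq_top.mp h)
    haveI : Group.IsNilpotent P := P.isPGroup'.isNilpotent
    have hlt' := Group.normalizerCondition_of_isNilpotent (G := P) _ (lt_top_iff_ne_top.mpr hne)
    obtain ⟨⟨x, hxP⟩, hxN, hxT⟩ := SetLike.exists_of_lt hlt'
    have hxn : x ∈ Subgroup.normalizer (T : Set (SpecialLinearGroup ι F)) :=
      mem_normalizer_of_forall fun s hs =>
        (Subgroup.mem_normalizer_iff.1 hxN ⟨s, hTP hs⟩).1 hs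
    obtain ⟨j, hj⟩ := pow_two_mem P.isPGroup' hxP
    exact hxT (Subgroup.mem_comap.2 (hS.maximal _ ⟨j, by rw [← map_pow]; exact (congrArg f hj).trans (map_one f)⟩ (hTn x hxn)))
  exact ⟨P, fun g hg => by rw [hPT] at hg ⊢; exact key g hg⟩

omit [Finite F] in
/-- Transport along an isomorphism. -/
theorem ns_transport {κ : Type*} [Fintype κ] [DecidableEq κ] (e : ι ≃ κ) (h : NS ι F) : NS κ F := by
  haveI := Fact.mk Nat.prime_two
  let E : SpecialLinearGroup ι F ≃* SpecialLinearGroup κ F :=
    { toFun := fun g => ⟨Matrix.reindexAlgEquiv F F e g.1, by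
        rw [Matrix.det_reindexAlgEquiv, g.2]⟩
      invFun := fun g => ⟨Matrix.reindexAlgEquiv F F e.symm g.1, by
        rw [Matrix.det_reindexAlgEquiv, g.2]⟩
      left_inv := fun g => Subtype.ext (by simp)
      right_inv := fun g => Subtype.ext (by simp)
      map_mul' := fun g h => Subtype.ext (map_mul (Matrix.reindexAlgEquiv F F e) g.1 h.1) }
  obtain ⟨P, hP⟩ := h
  let Q : Sylow 2 (SpecialLinearGroup κ F) :=
    { toSubgroup := (P : Subgroup (SpecialLinearGroup ι F)).comap E.symm.toMonoidHom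
      isPGroup' := P.isPGroup'.comap_of_injective _ E.symm.injective
      is_maximal' := fun {R} hR hle => by
        have h1 : R.comap E.toMonoidHom = (P : Subgroup (SpecialLinearGroup ι F)) :=
          P.is_maximal' (hR.comap_of_injective _ E.injective) (fun x hx => hle (by
            show E.symm (E x) ∈ (P : Subgroup (SpecialLinearGroup ι F))
            rw [E.symm_apply_apply]; exact hx))
        rw [← h1, Subgroup.comap_comap]
        ext x
        simp }
  refine ⟨Q, ?_⟩
  intro g hg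
  change g ∈ Subgroup.normalizer (((P : Subgroup (SpecialLinearGroup ι F)).comap E.symm.toMonoidHom :
    Subgroup (SpecialLinearGroup κ F)) : Set (SpecialLinearGroup κ F)) at hg
  show g ∈ (P : Subgroup (SpecialLinearGroup ι F)).comap E.symm.toMonoidHom ⊔
    Subgroup.center (SpecialLinearGroup κ F)
  have hg' : E.symm g ∈ Subgroup.normalizer
      ((P : Subgroup (SpecialLinearGroup ι F)) : Set (SpecialLinearGroup ι F)) := by
    refine Subgroup.mem_normalizer_iff.2 fun s => ?_
    have := Subgroup.mem_normalizer_iff.1 hg (E s)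
    simpa using this
  have h1 := hP _ hg'
  obtain ⟨s, hs, z, hz, hsz⟩ := Subgroup.mem_sup_of_normal_right.1 h1
  rw [show g = E s * E z by rw [← map_mul, hsz, E.apply_symm_apply]]
  refine mul_mem (Subgroup.mem_sup_left (Subgroup.mem_comap.2 ?_)) (Subgroup.mem_sup_right ?_)
  · show E.symm (E s) ∈ _
    rw [E.symm_apply_apply]; exact hs
  · refine Subgroup.mem_center_iff.2 fun x => ?_
    rw [← E.apply_symm_apply x, ← map_mul, ← map_mul, Subgroup.mem_center_iff.1 hz]

theorem exists_good (h2 : (2 : F) ≠ 0) : ∀ k : ℕ, ∃ (ι : Type) (_ : Fintype ι) (_ : DecidableEq ι),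
    Fintype.card ι = 2 ^ (k + 1) ∧ ∃ S : Subgroup (GL ι F), Good S
  | 0 => by
    obtain ⟨j, hj⟩ := exists_J (F := F) h2
    obtain ⟨c, hc, hc2⟩ := exists_c (F := F) h2
    exact ⟨Fin 2, inferInstance, inferInstance, by simp, WW hj, good_WW hj h2 hc hc2⟩
  | k + 1 => by
    obtain ⟨ι, i1, i2, hc, S, hS⟩ := exists_good h2 k
    exact ⟨ι ⊕ ι, inferInstance, inferInstance, by rw [Fintype.card_sum, hc]; ring, double S,
      good_double hS h2⟩

/-- Self-normalising modulo the centre, except in dimension two with `q ≡ ±3` modulo eight. -/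
theorem ns_fin (h2 : (2 : F) ≠ 0) (w : ℕ) (hw : 1 ≤ w)
    (hq : w = 1 → Nat.card F % 8 = 1 ∨ Nat.card F % 8 = 7) : NS (Fin (2 ^ w)) F := by
  rcases Nat.lt_or_ge w 2 with h | h
  · obtain rfl : w = 1 := by omega
    obtain ⟨j, hj⟩ := exists_J (F := F) h2
    obtain ⟨c, hc, hcd, hc2⟩ := exists_c_sl (F := F) h2 (hq rfl)
    exact ns_of_goodSL (goodSL_WW hj h2 hc hcd hc2)
  · obtain ⟨k, rfl⟩ : ∃ k, w = k + 2 := ⟨w - 2, by omega⟩
    obtain ⟨ι, i1, i2, hc, S, hS⟩ := exists_good (F := F) h2 k
    refine ns_transport ?_ (ns_of_goodSL (goodSL_double hS h2))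
    refine Fintype.equivFinOfCardEq ?_
    rw [Fintype.card_sum, hc]; ring

end CfsgLib.PronPSL
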