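import Cfsg.Agent.PronPSL.Two

/-!
Two-elements with non-scalar square.
-/

set_option autoImplicit false

namespace CfsgLib.PronPSL

open Matrix

variable {F : Type*} [Field F] [Finite F]

/-- A group of order divisible by eight inside the centraliser of `i`. -/
theorem exists_c_of_eight {G : Subgroup (GL (Fin 2) F)} (hG : G ≤ UU F) (h8 : 8 ∣ Nat.card G)
    (hsmall : ∀ x ∈ G, (∃ k : ℕ, x ^ 2 ^ k = 1) → (∃ s : F, (x : Matrix (Fin 2) (Fin 2) F) * x = s • 1) →
      x = 1 ∨ x = -1 ∨ x = eI ∨ x = -(eI : GL (Fin 2) F)) :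
    ∃ c ∈ CC F, c ∈ G ∧ ∀ s : F, (c : Matrix (Fin 2) (Fin 2) F) * c ≠ s • 1 := by
  classical
  by_contra hno
  push Not at hno
  haveI := Fact.mk Nat.prime_two
  obtain ⟨K, hK⟩ := Sylow.exists_subgroup_card_pow_prime (G := G) 2 (n := 3) h8
  have h2el : ∀ x : G, x ∈ K → ∃ k : ℕ, (x : GL (Fin 2) F) ^ 2 ^ k = 1 := fun x hx => by
    obtain ⟨k, hk⟩ := (IsPGroup.of_card hK) ⟨x, hx⟩
    exact ⟨k, congrArg (fun y : K => ((y : G) : GL (Fin 2) F)) hk⟩
  have hsub : K.map G.subtype ≤ K.map G.subtype := le_rfl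
  have hle : Nat.card K ≤ 4 := by
    rw [← Subgroup.card_map_of_injective G.subtype_injective]
    have hset : ((K.map G.subtype : Subgroup (GL (Fin 2) F)) : Set (GL (Fin 2) F)) ⊆
        ({1, -1, (eI : GL (Fin 2) F), -(eI : GL (Fin 2) F)} : Finset (GL (Fin 2) F)) := by
      rintro _ ⟨x, hx, rfl⟩
      obtain ⟨k, hk⟩ := h2el x hx
      simpa using hsmall x x.2 ⟨k, hk⟩ (hno x ⟨hG x.2, k, hk⟩ x.2)
    refine (Nat.card_mono (Finset.finite_toSet _) hset).trans ?_
    rw [Nat.card_coe_set_eq, Set.ncard_coe_finset]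
    exact Finset.card_le_four
  omega

/-- The pairs of nowhere vanishing norm. -/
noncomputable def uuEquiv : UU F ≃ {p : F × F // p.1 * p.1 + p.2 * p.2 ≠ 0} where
  toFun g := ⟨(((g : GL (Fin 2) F) : Matrix (Fin 2) (Fin 2) F) 0 0,
      ((g : GL (Fin 2) F) : Matrix (Fin 2) (Fin 2) F) 1 0), by
    obtain ⟨a, b, h⟩ := exists_el_of_mem g.2
    have hd := ((Matrix.isUnit_iff_isUnit_det _).1 (g : GL (Fin 2) F).isUnit).ne_zero
    rw [h, el_det] at hd
    simpa [h, el] using hd⟩
  invFun p := ⟨GeneralLinearGroup.mkOfDetNeZero (el p.1.1 p.1.2) (by rw [el_det]; exact p.2),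
    mem_UU.2 (Units.ext (el_comm_I p.1.1 p.1.2))⟩
  left_inv g := by
    obtain ⟨a, b, h⟩ := exists_el_of_mem g.2
    refine Subtype.ext (Units.ext ?_)
    show el (((g : GL (Fin 2) F) : Matrix (Fin 2) (Fin 2) F) 0 0)
      (((g : GL (Fin 2) F) : Matrix (Fin 2) (Fin 2) F) 1 0) = _
    rw [h]; simp [el]
  right_inv p := Subtype.ext (by
    show ((el p.1.1 p.1.2) 0 0, (el p.1.1 p.1.2) 1 0) = p.1
    simp [el])

theorem card_UU_square {i : F} (hi : i * i = -1) (h2 : (2 : F) ≠ 0) :
    Nat.card (UU F) = Nat.card Fˣ * Nat.card Fˣ := by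
  rw [← Nat.card_prod, Nat.card_congr uuEquiv]
  have hi0 : i ≠ 0 := fun h => by rw [h, mul_zero] at hi; exact one_ne_zero (neg_eq_zero.1 hi.symm)
  refine Nat.card_congr
    { toFun := fun p => (Units.mk0 (p.1.1 + i * p.1.2) (fun h => p.2 (by
          linear_combination (p.1.1 - i * p.1.2) * h + p.1.2 * p.1.2 * hi)),
        Units.mk0 (p.1.1 - i * p.1.2) (fun h => p.2 (by
          linear_combination (p.1.1 + i * p.1.2) * h + p.1.2 * p.1.2 * hi)))
      invFun := fun u => ⟨(((u.1 : F) + u.2) / 2, ((u.1 : F) - u.2) / (2 * i)), ?_⟩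
      left_inv := ?_
      right_inv := ?_ }
  · have : ((u.1 : F) + u.2) / 2 * (((u.1 : F) + u.2) / 2) +
        ((u.1 : F) - u.2) / (2 * i) * (((u.1 : F) - u.2) / (2 * i)) = u.1 * u.2 := by
      field_simp
      linear_combination (((u.1 : F) + u.2) ^ 2 - 4 * u.1 * u.2) * hi
    simp only [this]
    exact mul_ne_zero u.1.ne_zero u.2.ne_zero
  · intro p
    refine Subtype.ext (Prod.ext ?_ ?_) <;>
    · simp only [Units.val_mk0]; field_simp; ring
  · intro u
    refine Prod.ext (Units.ext ?_) (Units.ext ?_) <;>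
    · simp only [Units.val_mk0]; field_simp; ring

theorem card_UU_nonsquare (hns : ¬ ∃ i : F, i * i = -1) :
    Nat.card (UU F) = Nat.card F * Nat.card F - 1 := by
  classical
  haveI := Fintype.ofFinite F
  rw [Nat.card_congr uuEquiv, Nat.card_eq_fintype_card, Nat.card_eq_fintype_card, ← Fintype.card_prod,
    Fintype.card_congr (Equiv.subtypeEquivRight (q := fun p : F × F => ¬ p = (0, 0)) fun p => ?_),
    Fintype.card_subtype_compl, Fintype.card_subtype_eq]
  constructor
  · rintro h rfl; simp at h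
  · intro h h0
    by_cases hb : p.2 = 0
    · refine h (Prod.ext ?_ hb)
      simpa [hb] using h0
    · exact hns ⟨p.1 / p.2, by field_simp; linear_combination h0⟩

theorem card_UU_sl (h2 : (2 : F) ≠ 0) :
    Nat.card (UU F) = Nat.card (UU F ⊓ sl (Fin 2) F : Subgroup (GL (Fin 2) F)) * Nat.card Fˣ := by
  classical
  haveI := Fintype.ofFinite F
  set f : UU F →* Fˣ := Matrix.GeneralLinearGroup.det.comp (UU F).subtype with hf
  have hodd : Fintype.card F % 2 = 1 :=
    FiniteField.odd_card_of_char_ne_two fun h => by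
      haveI := ringChar.of_eq h
      exact h2 (CharP.cast_eq_zero F 2)
  have hsurj : Function.Surjective f := by
    intro u
    obtain ⟨a, b, hab⟩ := FiniteField.exists_root_sum_quadratic
      (f := (Polynomial.X ^ 2 : Polynomial F)) (g := Polynomial.X ^ 2 + Polynomial.C (-(u : F)))
      (Polynomial.degree_X_pow 2) (Polynomial.degree_X_pow_add_C (by norm_num) _) hodd
    simp at hab
    have h : a * a + b * b = u := by linear_combination hab
    refine ⟨⟨GeneralLinearGroup.mkOfDetNeZero (el a b) (by rw [el_det, h]; exact u.ne_zero),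
      mem_UU.2 (Units.ext (el_comm_I a b))⟩, Units.ext ?_⟩
    show (el a b).det = u
    rw [el_det, h]
  rw [Subgroup.card_eq_card_quotient_mul_card_subgroup f.ker,
    Nat.card_congr (QuotientGroup.quotientKerEquivOfSurjective f hsurj).toEquiv, mul_comm]
  congr 1
  refine Nat.card_congr
    { toFun := fun g => ⟨g.1.1, g.1.2, g.2⟩
      invFun := fun g => ⟨⟨g.1, g.2.1⟩, g.2.2⟩
      left_inv := fun g => rfl
      right_inv := fun g => rfl }

theorem el_sq_scalar {a b s : F} (h2 : (2 : F) ≠ 0) (h : el a b * el a b = s • 1) : a = 0 ∨ b = 0 := by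
  rw [el_mul, ← el_scalar] at h
  have := (el_inj h).2
  exact mul_eq_zero.1 ((mul_eq_zero.1 (show (2 : F) * (a * b) = 0 by linear_combination this)).resolve_left h2)

/-- Two-elements of determinant one with scalar square. -/
theorem small_sl (h2 : (2 : F) ≠ 0) {x : GL (Fin 2) F} (hx : x ∈ UU F ⊓ sl (Fin 2) F)
    (hs : ∃ s : F, (x : Matrix (Fin 2) (Fin 2) F) * x = s • 1) :
    x = 1 ∨ x = -1 ∨ x = eI ∨ x = -(eI : GL (Fin 2) F) := by
  obtain ⟨a, b, hab⟩ := exists_el_of_mem hx.1
  obtain ⟨s, hs⟩ := hs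
  have hd := mem_sl.1 hx.2
  rw [hab, el_det] at hd
  rw [hab] at hs
  rcases el_sq_scalar h2 hs with h | h <;> subst h
  · rcases mul_self_eq_one_iff.1 (show b * b = 1 by linear_combination hd) with rfl | rfl
    · exact Or.inr (Or.inr (Or.inl (Units.ext (hab.trans eI_coe.symm))))
    · refine Or.inr (Or.inr (Or.inr (Units.ext ?_)))
      rw [hab, Units.val_neg, eI_coe]
      ext i k; fin_cases i <;> fin_cases k <;> simp [el]
  · rcases mul_self_eq_one_iff.1 (show a * a = 1 by linear_combination hd) with rfl | rfl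
    · exact Or.inl (Units.ext (by rw [hab, el_scalar, one_smul]; rfl))
    · exact Or.inr (Or.inl (Units.ext (by rw [hab, el_scalar, neg_smul, one_smul]; rfl)))

theorem exists_c (h2 : (2 : F) ≠ 0) :
    ∃ c ∈ CC F, ∀ s : F, (c : Matrix (Fin 2) (Fin 2) F) * c ≠ s • 1 := by
  classical
  by_cases hsq : ∃ i : F, i * i = -1
  · obtain ⟨i, hi⟩ := hsq
    set a := (1 + i) / 2 with ha
    have h2a : a * a + a * a = i := by rw [ha]; field_simp; linear_combination 2 * hi
    have hi0 : i ≠ 0 := fun h => by rw [h, mul_zero] at hi; exact one_ne_zero (neg_eq_zero.1 hi.symm)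
    set c : GL (Fin 2) F := GeneralLinearGroup.mkOfDetNeZero (el a a) (by rw [el_det, h2a]; exact hi0)
    have hc2 : (c : Matrix (Fin 2) (Fin 2) F) * c = el 0 i := by
      show el a a * el a a = _
      rw [el_mul, h2a, sub_self]
    refine ⟨c, ⟨mem_UU.2 (Units.ext (el_comm_I a a)), 2, Units.ext ?_⟩, fun s h => ?_⟩
    · rw [show (2 : ℕ) ^ 2 = 2 * 2 from rfl, pow_mul, pow_two, pow_two, Units.val_mul, Units.val_mul, hc2,
        el_mul, Units.val_one]
      ext x y; fin_cases x <;> fin_cases y <;> simp [el, hi]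
    · rw [hc2, ← el_scalar] at h
      exact hi0 (el_inj h).2
  · have h8 : 8 ∣ Nat.card (UU F) := by
      haveI := Fintype.ofFinite F
      rw [card_UU_nonsquare hsq, Nat.card_eq_fintype_card]
      have hodd : Fintype.card F % 2 = 1 :=
        FiniteField.odd_card_of_char_ne_two fun h => by
          haveI := ringChar.of_eq h
          exact h2 (CharP.cast_eq_zero F 2)
      obtain ⟨k, hk⟩ : ∃ k, Fintype.card F = 2 * k + 1 := ⟨Fintype.card F / 2, by omega⟩
      rw [hk]
      obtain ⟨m, hm⟩ := Nat.even_mul_succ_self k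
      refine ⟨m, ?_⟩
      have : (2 * k + 1) * (2 * k + 1) = 4 * (k * (k + 1)) + 1 := by ring
      omega
    obtain ⟨c, hc, -, h⟩ := exists_c_of_eight le_rfl h8 (fun x hx hx2 hs => by
      obtain ⟨a, b, hab⟩ := exists_el_of_mem hx
      obtain ⟨s, hs⟩ := hs
      have h1 : ∀ k : ℕ, ∀ t : F, t ^ 2 ^ k = 1 → t = 1 ∨ t = -1 := by
        intro k
        induction k with
        | zero => intro t ht; left; simpa using ht
        | succ k ih =>
          intro t ht
          rw [pow_succ', pow_mul] at ht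
          rcases ih _ ht with h | h
          · exact mul_self_eq_one_iff.1 ((pow_two t).symm.trans h)
          · exact absurd ⟨t, (pow_two t).symm.trans h⟩ hsq
      obtain ⟨k, hk⟩ := hx2
      refine small_sl h2 ⟨hx, mem_sl.2 ?_⟩ ⟨s, hs⟩
      have hd := congrArg (fun g : GL (Fin 2) F => (g : Matrix (Fin 2) (Fin 2) F).det) hk
      simp only [Units.val_pow_eq_pow_val, Units.val_one, Matrix.det_pow, Matrix.det_one] at hd
      rcases h1 k _ hd with h | h
      · exact h
      · exfalso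
        rw [hab, el_det] at h
        rw [hab] at hs
        rcases el_sq_scalar h2 hs with e | e <;> subst e
        · exact hsq ⟨b, by linear_combination h⟩
        · exact hsq ⟨a, by linear_combination h⟩)
    exact ⟨c, hc, h⟩

/-- With `q ≡ ±1` modulo eight such an element has determinant one. -/
theorem exists_c_sl (h2 : (2 : F) ≠ 0) (hq : Nat.card F % 8 = 1 ∨ Nat.card F % 8 = 7) :
    ∃ c ∈ CC F, (c : Matrix (Fin 2) (Fin 2) F).det = 1 ∧
      ∀ s : F, (c : Matrix (Fin 2) (Fin 2) F) * c ≠ s • 1 := by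
  classical
  haveI := Fintype.ofFinite F
  have hu : Nat.card Fˣ = Fintype.card F - 1 := by rw [Nat.card_units, Nat.card_eq_fintype_card]
  have hone := Fintype.one_lt_card (α := F)
  rw [Nat.card_eq_fintype_card] at hq
  have hsl := card_UU_sl (F := F) h2
  rw [hu] at hsl
  have h8 : 8 ∣ Nat.card (UU F ⊓ sl (Fin 2) F : Subgroup (GL (Fin 2) F)) := by
    have hiff : (∃ i : F, i * i = -1) ↔ Fintype.card F % 4 ≠ 3 := by
      rw [← FiniteField.isSquare_neg_one_iff]
      exact ⟨fun ⟨i, hi⟩ => ⟨i, hi.symm⟩, fun ⟨i, hi⟩ => ⟨i, hi.symm⟩⟩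
    by_cases hsq : ∃ i : F, i * i = -1
    · obtain ⟨i, hi⟩ := hsq
      rw [card_UU_square hi h2, hu] at hsl
      rw [← Nat.eq_of_mul_eq_mul_right (by omega) hsl]
      have := hiff.1 ⟨i, hi⟩
      omega
    · rw [card_UU_nonsquare hsq, Nat.card_eq_fintype_card] at hsl
      have h3 : Fintype.card F % 4 = 3 := by
        by_contra h; exact hsq (hiff.2 h)
      have e : Fintype.card F * Fintype.card F - 1 = (Fintype.card F + 1) * (Fintype.card F - 1) := by
        obtain ⟨k, hk⟩ := Nat.exists_eq_add_of_le hone.le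
        rw [hk, Nat.add_sub_cancel_left]
        have : (1 + k) * (1 + k) = (1 + k + 1) * k + 1 := by ring
        omega
      rw [e] at hsl
      rw [← Nat.eq_of_mul_eq_mul_right (by omega) hsl]
      omega
  obtain ⟨c, hc, hcG, h⟩ := exists_c_of_eight inf_le_left h8 fun x hx _ hs => small_sl h2 hx hs
  exact ⟨c, hc, mem_sl.1 hcG.2, h⟩

end CfsgLib.PronPSL
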