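import Mathlib

/-!
Maximal two-subgroups of general linear groups and their normalisers: the doubling step.
-/

set_option autoImplicit false

namespace CfsgLib.PronPSL

open Matrix

theorem mem_normalizer_of_forall {G : Type*} [Group G] [Finite G] {S : Subgroup G} {y : G}
    (h : ∀ s ∈ S, y * s * y⁻¹ ∈ S) : y ∈ Subgroup.normalizer (S : Set G) := by
  refine Subgroup.mem_normalizer_iff_map_conj_eq.2 (Subgroup.eq_of_le_of_card_ge ?_
    (by rw [Subgroup.card_map_of_injective (MulAut.conj y).injective]))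
  rintro _ ⟨s, hs, rfl⟩
  exact h s hs

theorem conj_mem_of_normalizer {G : Type*} [Group G] {S : Subgroup G} {y : G}
    (h : y ∈ Subgroup.normalizer (S : Set G)) {s : G} (hs : s ∈ S) : y * s * y⁻¹ ∈ S :=
  (Subgroup.mem_normalizer_iff.1 h s).1 hs

theorem sup_zpowers_two {G : Type*} [Group G] {S : Subgroup G} (hS : IsPGroup 2 S) {y : G}
    (hy : ∃ k : ℕ, y ^ 2 ^ k = 1) (hn : y ∈ Subgroup.normalizer (S : Set G)) :
    IsPGroup 2 (S ⊔ Subgroup.zpowers y : Subgroup G) := by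
  refine IsPGroup.to_sup_of_normal_left' hS ?_ ((Subgroup.zpowers_le).2 hn)
  obtain ⟨k, hk⟩ := hy
  rintro ⟨_, l, rfl⟩
  refine ⟨k, Subtype.ext ?_⟩
  show (y ^ l) ^ 2 ^ k = 1
  rw [← zpow_natCast, ← _root_.zpow_mul, mul_comm, _root_.zpow_mul, zpow_natCast, hk, _root_.one_zpow]

theorem pow_two_mem {G : Type*} [Group G] {P : Subgroup G} (hP : IsPGroup 2 P) {y : G} (hy : y ∈ P) :
    ∃ k : ℕ, y ^ 2 ^ k = 1 := by
  obtain ⟨k, hk⟩ := hP ⟨y, hy⟩
  exact ⟨k, congrArg Subtype.val hk⟩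

theorem eq_one_of_odd_two {M : Type*} [Monoid M] {x : M} {k m : ℕ} (hm : Odd m)
    (h1 : x ^ 2 ^ k = 1) (h2 : x ^ m = 1) : x = 1 := by
  have h := pow_gcd_eq_one.2 ⟨h1, h2⟩
  rwa [Nat.Coprime.gcd_eq_one ((Nat.coprime_two_left.2 hm).pow_left k), pow_one] at h

variable {ι : Type*} [Fintype ι] [DecidableEq ι] {F : Type*} [Field F]

/-- The part of determinant one. -/
def sl (ι : Type*) [Fintype ι] [DecidableEq ι] (F : Type*) [Field F] : Subgroup (GL ι F) :=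
  (Matrix.GeneralLinearGroup.det : GL ι F →* Fˣ).ker

theorem mem_sl {g : GL ι F} : g ∈ sl ι F ↔ (g : Matrix ι ι F).det = 1 := by
  rw [sl, MonoidHom.mem_ker, Units.ext_iff]; rfl

theorem sl_conj {g y : GL ι F} (hg : g ∈ sl ι F) : y * g * y⁻¹ ∈ sl ι F :=
  (MonoidHom.normal_ker _).conj_mem g hg y

theorem normalizer_inf_sl [Finite F] {S : Subgroup (GL ι F)} {y : GL ι F}
    (hy : y ∈ Subgroup.normalizer (S : Set (GL ι F))) :
    y ∈ Subgroup.normalizer ((S ⊓ sl ι F : Subgroup (GL ι F)) : Set (GL ι F)) :=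
  mem_normalizer_of_forall fun _ hs => ⟨conj_mem_of_normalizer hy hs.1, sl_conj hs.2⟩

/-- What the induction carries. -/
structure Good (S : Subgroup (GL ι F)) : Prop where
  two : IsPGroup 2 S
  neg : (-1 : GL ι F) ∈ S
  even : Even (Fintype.card ι)
  nontriv : Nontrivial ι
  commutant : ∀ X : Matrix ι ι F, (∀ s ∈ S ⊓ sl ι F, X * (s : Matrix ι ι F) = (s : Matrix ι ι F) * X) →
    ∃ c : F, X = c • 1
  odd : ∀ y : GL ι F, Odd (orderOf y) → y ∈ Subgroup.normalizer (S : Set (GL ι F)) →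
    ∃ c : F, (y : Matrix ι ι F) = c • 1
  maximal : ∀ y : GL ι F, (∃ k : ℕ, y ^ 2 ^ k = 1) → y ∈ Subgroup.normalizer (S : Set (GL ι F)) → y ∈ S

/-- The conclusion wanted for the part of determinant one. -/
structure GoodSL (S : Subgroup (GL ι F)) : Prop where
  two : IsPGroup 2 S
  odd : ∀ y : GL ι F, Odd (orderOf y) →
    y ∈ Subgroup.normalizer ((S ⊓ sl ι F : Subgroup (GL ι F)) : Set (GL ι F)) →
    ∃ c : F, (y : Matrix ι ι F) = c • 1
  maximal : ∀ y : GL ι F, (∃ k : ℕ, y ^ 2 ^ k = 1) →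
    y ∈ Subgroup.normalizer ((S ⊓ sl ι F : Subgroup (GL ι F)) : Set (GL ι F)) → y ∈ S

/-- Block diagonal elements. -/
def dg (a b : GL ι F) : GL (ι ⊕ ι) F :=
  ⟨fromBlocks (a : Matrix ι ι F) 0 0 b, fromBlocks ((a⁻¹ : GL ι F) : Matrix ι ι F) 0 0 (b⁻¹ : GL ι F),
    by simp [fromBlocks_multiply, ← Units.val_mul], by simp [fromBlocks_multiply, ← Units.val_mul]⟩

/-- Block antidiagonal elements. -/
def ag (a b : GL ι F) : GL (ι ⊕ ι) F :=
  ⟨fromBlocks 0 (a : Matrix ι ι F) b 0, fromBlocks 0 ((b⁻¹ : GL ι F) : Matrix ι ι F) (a⁻¹ : GL ι F) 0,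
    by simp [fromBlocks_multiply, ← Units.val_mul], by simp [fromBlocks_multiply, ← Units.val_mul]⟩

theorem dg_coe (a b : GL ι F) :
    (dg a b : Matrix (ι ⊕ ι) (ι ⊕ ι) F) = fromBlocks (a : Matrix ι ι F) 0 0 b := rfl

theorem ag_coe (a b : GL ι F) :
    (ag a b : Matrix (ι ⊕ ι) (ι ⊕ ι) F) = fromBlocks 0 (a : Matrix ι ι F) b 0 := rfl

theorem dg_mul_dg (a b a' b' : GL ι F) : dg a b * dg a' b' = dg (a * a') (b * b') :=
  Units.ext (by simp [dg_coe, fromBlocks_multiply])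

theorem dg_mul_ag (a b a' b' : GL ι F) : dg a b * ag a' b' = ag (a * a') (b * b') :=
  Units.ext (by simp [dg_coe, ag_coe, fromBlocks_multiply])

theorem ag_mul_dg (a b a' b' : GL ι F) : ag a b * dg a' b' = ag (a * b') (b * a') :=
  Units.ext (by simp [dg_coe, ag_coe, fromBlocks_multiply])

theorem ag_mul_ag (a b a' b' : GL ι F) : ag a b * ag a' b' = dg (a * b') (b * a') :=
  Units.ext (by simp [dg_coe, ag_coe, fromBlocks_multiply])

theorem dg_one : dg (1 : GL ι F) 1 = 1 := Units.ext (by simp [dg_coe, fromBlocks_one])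

theorem dg_inv (a b : GL ι F) : (dg a b)⁻¹ = dg a⁻¹ b⁻¹ :=
  inv_eq_of_mul_eq_one_right (by rw [dg_mul_dg, mul_inv_cancel, mul_inv_cancel, dg_one])

theorem ag_inv (a b : GL ι F) : (ag a b)⁻¹ = ag b⁻¹ a⁻¹ :=
  inv_eq_of_mul_eq_one_right (by rw [ag_mul_ag, mul_inv_cancel, mul_inv_cancel, dg_one])

theorem dg_pow (a b : GL ι F) : ∀ m : ℕ, dg a b ^ m = dg (a ^ m) (b ^ m)
  | 0 => by simp [dg_one]
  | m + 1 => by rw [pow_succ, dg_pow a b m, dg_mul_dg, pow_succ, pow_succ]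

theorem dg_inj {a b a' b' : GL ι F} (h : dg a b = dg a' b') : a = a' ∧ b = b' := by
  have h' := congrArg (fun g : GL (ι ⊕ ι) F => (g : Matrix (ι ⊕ ι) (ι ⊕ ι) F)) h
  simp only [dg_coe, fromBlocks_inj] at h'
  exact ⟨Units.ext h'.1, Units.ext h'.2.2.2⟩

theorem ag_inj {a b a' b' : GL ι F} (h : ag a b = ag a' b') : a = a' ∧ b = b' := by
  have h' := congrArg (fun g : GL (ι ⊕ ι) F => (g : Matrix (ι ⊕ ι) (ι ⊕ ι) F)) h
  simp only [ag_coe, fromBlocks_inj] at h'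
  exact ⟨Units.ext h'.2.1, Units.ext h'.2.2.1⟩

theorem dg_ne_ag [Nonempty ι] (a b a' b' : GL ι F) : dg a b ≠ ag a' b' := fun h => by
  have h' := congrArg (fun g : GL (ι ⊕ ι) F => (g : Matrix (ι ⊕ ι) (ι ⊕ ι) F)) h
  simp only [dg_coe, ag_coe, fromBlocks_inj] at h'
  exact a.ne_zero h'.1

/-- The doubled subgroup. -/
def double (S : Subgroup (GL ι F)) : Subgroup (GL (ι ⊕ ι) F) where
  carrier := {g | ∃ a ∈ S, ∃ b ∈ S, g = dg a b ∨ g = ag a b}
  one_mem' := ⟨1, one_mem S, 1, one_mem S, Or.inl dg_one.symm⟩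
  mul_mem' := by
    rintro _ _ ⟨a, ha, b, hb, rfl | rfl⟩ ⟨a', ha', b', hb', rfl | rfl⟩
    · exact ⟨_, mul_mem ha ha', _, mul_mem hb hb', Or.inl (dg_mul_dg a b a' b')⟩
    · exact ⟨_, mul_mem ha ha', _, mul_mem hb hb', Or.inr (dg_mul_ag a b a' b')⟩
    · exact ⟨_, mul_mem ha hb', _, mul_mem hb ha', Or.inr (ag_mul_dg a b a' b')⟩
    · exact ⟨_, mul_mem ha hb', _, mul_mem hb ha', Or.inl (ag_mul_ag a b a' b')⟩
  inv_mem' := by
    rintro _ ⟨a, ha, b, hb, rfl | rfl⟩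
    · exact ⟨_, inv_mem ha, _, inv_mem hb, Or.inl (dg_inv a b)⟩
    · exact ⟨_, inv_mem hb, _, inv_mem ha, Or.inr (ag_inv a b)⟩

variable {S : Subgroup (GL ι F)}

theorem dg_mem {a b : GL ι F} (ha : a ∈ S) (hb : b ∈ S) : dg a b ∈ double S :=
  ⟨a, ha, b, hb, Or.inl rfl⟩

theorem mem_of_dg_mem [Nonempty ι] {a b : GL ι F} (h : dg a b ∈ double S) : a ∈ S ∧ b ∈ S := by
  obtain ⟨a', ha', b', hb', h | h⟩ := h
  · obtain ⟨rfl, rfl⟩ := dg_inj h; exact ⟨ha', hb'⟩
  · exact absurd h (dg_ne_ag _ _ _ _)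

theorem mem_of_ag_mem [Nonempty ι] {a b : GL ι F} (h : ag a b ∈ double S) : a ∈ S ∧ b ∈ S := by
  obtain ⟨a', ha', b', hb', h | h⟩ := h
  · exact absurd h.symm (dg_ne_ag _ _ _ _)
  · obtain ⟨rfl, rfl⟩ := ag_inj h; exact ⟨ha', hb'⟩

theorem det_dg (a b : GL ι F) : (dg a b : Matrix (ι ⊕ ι) (ι ⊕ ι) F).det =
    (a : Matrix ι ι F).det * (b : Matrix ι ι F).det := by
  rw [dg_coe, det_fromBlocks_zero₁₂]

theorem det_flip : (fromBlocks 0 1 (-1) 0 : Matrix (ι ⊕ ι) (ι ⊕ ι) F).det = 1 := by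
  have e : (fromBlocks 0 1 (-1) 0 : Matrix (ι ⊕ ι) (ι ⊕ ι) F) =
      fromBlocks 1 1 0 1 * fromBlocks 1 0 (-1) 1 * fromBlocks 1 1 0 1 := by
    simp [fromBlocks_multiply]
  rw [e, det_mul, det_mul, det_fromBlocks_zero₂₁, det_fromBlocks_zero₁₂]
  simp

/-- The standard flip. -/
def flip : GL (ι ⊕ ι) F := ag 1 (-1)

variable (hS : Good S) (h2 : (2 : F) ≠ 0)
include hS

theorem flip_mem : (flip : GL (ι ⊕ ι) F) ∈ double S ⊓ sl (ι ⊕ ι) F :=
  ⟨⟨1, one_mem S, -1, hS.neg, Or.inr rfl⟩, mem_sl.2 (by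
    show (fromBlocks 0 ((1 : GL ι F) : Matrix ι ι F) ((-1 : GL ι F) : Matrix ι ι F) 0).det = 1
    rw [Units.val_one, Units.val_neg, Units.val_one, det_flip])⟩

theorem dg_sl_mem {a : GL ι F} (ha : a ∈ S ⊓ sl ι F) : dg a 1 ∈ double S ⊓ sl (ι ⊕ ι) F :=
  ⟨dg_mem ha.1 (one_mem S), mem_sl.2 (by rw [det_dg, mem_sl.1 ha.2]; simp)⟩

theorem t_mem : dg (1 : GL ι F) (-1) ∈ double S ⊓ sl (ι ⊕ ι) F :=
  ⟨dg_mem (one_mem S) hS.neg, mem_sl.2 (by
    rw [det_dg]; simp [Matrix.det_neg, hS.even.neg_one_pow])⟩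

include h2

theorem two_smul_ne : ∀ a : GL ι F, (a : Matrix ι ι F) ≠ -(a : Matrix ι ι F) := by
  intro a h
  haveI := hS.nontriv
  have h' : (2 : F) • (a : Matrix ι ι F) = 0 := by
    rw [two_smul]; nth_rewrite 2 [h]; rw [add_neg_cancel]
  exact a.ne_zero ((smul_eq_zero.1 h').resolve_left h2)

theorem not_all_pm : ∃ a ∈ S ⊓ sl ι F, a ≠ 1 ∧ a ≠ -1 := by
  by_contra h
  push Not at h
  haveI := hS.nontriv
  obtain ⟨i, j, hij⟩ := exists_pair_ne ι
  obtain ⟨c, hc⟩ := hS.commutant (Matrix.single i j 1) fun s hs => by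
    by_cases h1 : s = 1
    · simp [h1]
    · simp [h s hs h1]
  have := congrFun (congrFun hc i) j
  simp [hij] at this

/-- The conjugates of the standard involution are the obvious ones. -/
theorem conj_t [Finite F] {y : GL (ι ⊕ ι) F}
    (hy : y ∈ Subgroup.normalizer ((double S ⊓ sl (ι ⊕ ι) F : Subgroup (GL (ι ⊕ ι) F)) : Set (GL (ι ⊕ ι) F))) :
    y * dg (1 : GL ι F) (-1) * y⁻¹ = dg (1 : GL ι F) (-1) ∨ y * dg (1 : GL ι F) (-1) * y⁻¹ = dg (-1 : GL ι F) 1 := by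
  haveI := hS.nontriv
  set t : GL (ι ⊕ ι) F := dg (1 : GL ι F) (-1) with ht
  set u := y * t * y⁻¹ with hu
  have htneg : -t = dg (-1 : GL ι F) 1 := Units.ext (by simp [ht, dg_coe, fromBlocks_neg])
  have hmem := conj_mem_of_normalizer hy (t_mem hS)
  have hconj : ∀ s ∈ double S ⊓ sl (ι ⊕ ι) F, s * u = u * s ∨ s * u = -(u * s) := by
    intro s hs
    have hs' := conj_mem_of_normalizer (inv_mem hy) hs
    have key : ∀ r ∈ double S, r * t = t * r ∨ r * t = -(t * r) := by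
      rintro r ⟨a, -, b, -, rfl | rfl⟩
      · left; rw [ht, dg_mul_dg, dg_mul_dg]; simp
      · right; rw [ht, ag_mul_dg, dg_mul_ag]; exact Units.ext (by simp [ag_coe, fromBlocks_neg])
    have e : ∀ r, s = y * r * y⁻¹ → (r * t = t * r → s * u = u * s) ∧
        (r * t = -(t * r) → s * u = -(u * s)) := by
      intro r hr
      constructor <;> intro h <;> rw [hr, hu]
      · rw [show y * r * y⁻¹ * (y * t * y⁻¹) = y * (r * t) * y⁻¹ by group, h]; group
      · rw [show y * r * y⁻¹ * (y * t * y⁻¹) = y * (r * t) * y⁻¹ by group, h,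
          show y * t * y⁻¹ * (y * r * y⁻¹) = y * (t * r) * y⁻¹ by group, mul_neg, neg_mul]
    obtain ⟨e₁, e₂⟩ := e (y⁻¹ * s * y⁻¹⁻¹) (by group)
    exact (key _ hs'.1).imp e₁ e₂
  have hu1 : u ≠ 1 := fun h => by
    have := (conj_eq_one_iff (a := y)).1 h
    rw [ht, ← dg_one] at this
    exact two_smul_ne hS h2 1 (by
      simpa using (congrArg (fun g : GL ι F => (g : Matrix ι ι F)) (dg_inj this).2).symm)
  have hu2 : u ≠ -1 := fun h => by
    have h' : t = -1 := by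
      rw [show t = y⁻¹ * u * y by rw [hu]; group, h, mul_neg, mul_one, neg_mul, inv_mul_cancel]
    rw [ht, show (-1 : GL (ι ⊕ ι) F) = dg (-1 : GL ι F) (-1) from Units.ext (by
      simp [dg_coe, ← fromBlocks_one, fromBlocks_neg])] at h'
    exact two_smul_ne hS h2 1 (by
      simpa using congrArg (fun g : GL ι F => (g : Matrix ι ι F)) (dg_inj h').1)
  have husq : u * u = 1 := by
    rw [hu, show y * t * y⁻¹ * (y * t * y⁻¹) = y * (t * t) * y⁻¹ by group, ht, dg_mul_dg]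
    simp [dg_one]
  obtain ⟨a, ha, b, hb, hcase | hcase⟩ := hmem.1
  · -- block diagonal
    rw [← hu] at hcase
    have hscal : ∀ (v : GL ι F), (∀ s ∈ S ⊓ sl ι F, (v : Matrix ι ι F) * (s : Matrix ι ι F) =
        (s : Matrix ι ι F) * v) → v * v = 1 → v = 1 ∨ v = -1 := by
      intro v hv hvv
      obtain ⟨c, hc⟩ := hS.commutant v hv
      have h1 := congrArg (fun g : GL ι F => (g : Matrix ι ι F)) hvv
      simp only [Units.val_mul, Units.val_one, hc, smul_mul_assoc, one_mul, smul_smul] at h1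
      have hcc : (c * c - 1) • (1 : Matrix ι ι F) = 0 := by rw [sub_smul, h1, one_smul, sub_self]
      have : c * c = 1 := sub_eq_zero.1 ((smul_eq_zero.1 hcc).resolve_right one_ne_zero)
      rcases mul_self_eq_one_iff.1 this with rfl | rfl
      · left; exact Units.ext (by rw [hc, one_smul]; rfl)
      · right; exact Units.ext (by rw [hc, neg_smul, one_smul]; rfl)
    have hsq : a * a = 1 ∧ b * b = 1 := by
      rw [hcase, dg_mul_dg, ← dg_one] at husq
      exact dg_inj husq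
    have ha1 : a = 1 ∨ a = -1 := hscal a (fun s hs => by
      rcases hconj _ (dg_sl_mem hS hs) with h | h
      · rw [hcase, dg_mul_dg, dg_mul_dg] at h
        exact (congrArg (fun g : GL ι F => (g : Matrix ι ι F)) (dg_inj h).1).symm
      · rw [hcase, dg_mul_dg, dg_mul_dg] at h
        have h' := congrArg (fun g : GL (ι ⊕ ι) F => (g : Matrix (ι ⊕ ι) (ι ⊕ ι) F)) h
        simp only [dg_coe, Units.val_neg, fromBlocks_neg, fromBlocks_inj, one_mul, mul_one] at h'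
        exact absurd h'.2.2.2 (two_smul_ne hS h2 b)) hsq.1
    have hb1 : b = 1 ∨ b = -1 := hscal b (fun s hs => by
      have hs' : dg 1 s ∈ double S ⊓ sl (ι ⊕ ι) F :=
        ⟨dg_mem (one_mem S) hs.1, mem_sl.2 (by rw [det_dg, mem_sl.1 hs.2]; simp)⟩
      rcases hconj _ hs' with h | h
      · rw [hcase, dg_mul_dg, dg_mul_dg] at h
        exact (congrArg (fun g : GL ι F => (g : Matrix ι ι F)) (dg_inj h).2).symm
      · rw [hcase, dg_mul_dg, dg_mul_dg] at h
        have h' := congrArg (fun g : GL (ι ⊕ ι) F => (g : Matrix (ι ⊕ ι) (ι ⊕ ι) F)) h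
        simp only [dg_coe, Units.val_neg, fromBlocks_neg, fromBlocks_inj, one_mul, mul_one] at h'
        exact absurd h'.1 (two_smul_ne hS h2 a)) hsq.2
    rcases ha1 with rfl | rfl <;> rcases hb1 with rfl | rfl
    · exact absurd (hcase.trans dg_one) hu1
    · exact Or.inl hcase
    · exact Or.inr hcase
    · exact absurd (hcase.trans (Units.ext (by simp [dg_coe, ← fromBlocks_one, fromBlocks_neg]))) hu2
  · exfalso
    rw [← hu] at hcase
    obtain ⟨s, hs, hs1, hs2⟩ := not_all_pm hS h2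
    rcases hconj _ (dg_sl_mem hS hs) with h | h <;> rw [hcase, dg_mul_ag, ag_mul_dg] at h
    · obtain ⟨h', -⟩ := ag_inj h
      rw [mul_one] at h'
      exact hs1 (mul_eq_right.1 h')
    · have h' := congrArg (fun g : GL (ι ⊕ ι) F => (g : Matrix (ι ⊕ ι) (ι ⊕ ι) F)) h
      simp only [ag_coe, Units.val_neg, fromBlocks_neg, fromBlocks_inj, mul_one] at h'
      refine hs2 ((mul_left_injective a) (Units.ext ?_))
      simpa using h'.2.1

/-- An element commuting with the standard involution is block diagonal. -/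
theorem exists_dg {y : GL (ι ⊕ ι) F} (h : y * dg (1 : GL ι F) (-1) = dg (1 : GL ι F) (-1) * y) :
    ∃ a b : GL ι F, y = dg a b := by
  have off : ∀ g : GL (ι ⊕ ι) F, g * dg (1 : GL ι F) (-1) = dg (1 : GL ι F) (-1) * g →
      (g : Matrix (ι ⊕ ι) (ι ⊕ ι) F) = fromBlocks (g : Matrix (ι ⊕ ι) (ι ⊕ ι) F).toBlocks₁₁ 0 0
        (g : Matrix (ι ⊕ ι) (ι ⊕ ι) F).toBlocks₂₂ := by
    intro g hg
    have hg' := congrArg (fun z : GL (ι ⊕ ι) F => (z : Matrix (ι ⊕ ι) (ι ⊕ ι) F)) hg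
    simp only [Units.val_mul, dg_coe] at hg'
    rw [← fromBlocks_toBlocks (g : Matrix (ι ⊕ ι) (ι ⊕ ι) F), fromBlocks_multiply, fromBlocks_multiply,
      fromBlocks_inj] at hg'
    simp only [Units.val_one, Units.val_neg, mul_zero, zero_mul, add_zero, zero_add, mul_one, one_mul,
      mul_neg, neg_mul] at hg'
    have z : ∀ X : Matrix ι ι F, X = -X → X = 0 := fun X hX => by
      have h' : (2 : F) • X = 0 := by rw [two_smul]; nth_rewrite 2 [hX]; rw [add_neg_cancel]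
      exact (smul_eq_zero.1 h').resolve_left h2
    conv_lhs => rw [← fromBlocks_toBlocks (g : Matrix (ι ⊕ ι) (ι ⊕ ι) F)]
    rw [z (g : Matrix (ι ⊕ ι) (ι ⊕ ι) F).toBlocks₁₂ hg'.2.1.symm,
      z (g : Matrix (ι ⊕ ι) (ι ⊕ ι) F).toBlocks₂₁ hg'.2.2.1]
  have h1 := off y h
  have h2' := off y⁻¹ (by
    rw [inv_mul_eq_iff_eq_mul, ← mul_assoc, h, mul_inv_cancel_right])
  have m1 := Units.mul_inv y
  have m2 := Units.inv_mul y
  rw [h1, h2', fromBlocks_multiply, ← fromBlocks_one, fromBlocks_inj] at m1 m2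
  simp only [mul_zero, zero_mul, add_zero, zero_add] at m1 m2
  exact ⟨⟨_, _, m1.1, m2.1⟩, ⟨_, _, m1.2.2.2, m2.2.2.2⟩, Units.ext h1⟩

theorem block_normalizes [Finite F] {a b : GL ι F}
    (hy : dg a b ∈ Subgroup.normalizer ((double S ⊓ sl (ι ⊕ ι) F : Subgroup (GL (ι ⊕ ι) F)) : Set (GL (ι ⊕ ι) F))) :
    a ∈ Subgroup.normalizer (S : Set (GL ι F)) ∧ b ∈ Subgroup.normalizer (S : Set (GL ι F)) := by
  haveI := hS.nontriv
  have key : ∀ s ∈ S, a * s * a⁻¹ ∈ S ∧ b * s⁻¹ * b⁻¹ ∈ S := fun s hs => by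
    have hmem : dg s s⁻¹ ∈ double S ⊓ sl (ι ⊕ ι) F := ⟨dg_mem hs (inv_mem hs), mem_sl.2 (by
      rw [det_dg, ← det_mul, ← Units.val_mul, mul_inv_cancel, Units.val_one, det_one])⟩
    have := (conj_mem_of_normalizer hy hmem).1
    rw [dg_inv, dg_mul_dg, dg_mul_dg] at this
    exact mem_of_dg_mem this
  exact ⟨mem_normalizer_of_forall fun s hs => (key s hs).1,
    mem_normalizer_of_forall fun s hs => by simpa using (key s⁻¹ (inv_mem hs)).2⟩

theorem goodSL_double [Finite F] : GoodSL (double S) := by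
  haveI := hS.nontriv
  have hP : IsPGroup 2 (double S) := by
    have hd : ∀ a ∈ S, ∀ b ∈ S, ∃ k : ℕ, dg a b ^ 2 ^ k = 1 := fun a ha b hb => by
      obtain ⟨k, hk⟩ := pow_two_mem hS.two ha
      obtain ⟨l, hl⟩ := pow_two_mem hS.two hb
      refine ⟨k + l, ?_⟩
      rw [dg_pow, pow_add, pow_mul, hk, one_pow, mul_comm, pow_mul, hl, one_pow, dg_one]
    rintro ⟨g, a, ha, b, hb, rfl | rfl⟩
    · obtain ⟨k, hk⟩ := hd a ha b hb
      exact ⟨k, Subtype.ext hk⟩
    · obtain ⟨k, hk⟩ := hd _ (mul_mem ha hb) _ (mul_mem hb ha)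
      refine ⟨k + 1, Subtype.ext ?_⟩
      show ag a b ^ 2 ^ (k + 1) = 1
      rw [pow_succ, mul_comm, pow_mul, pow_two, ag_mul_ag, hk]
  have tne : dg (1 : GL ι F) (-1) ≠ dg (-1 : GL ι F) 1 := fun h => two_smul_ne hS h2 1 (by
    simpa using congrArg (fun g : GL ι F => (g : Matrix ι ι F)) (dg_inj h).1)
  refine ⟨hP, fun y hodd hy => ?_, fun y hy2 hy => ?_⟩
  · have hty : y * dg (1 : GL ι F) (-1) = dg (1 : GL ι F) (-1) * y := by
      rcases conj_t hS h2 hy with h | h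
      · exact mul_inv_eq_iff_eq_mul.1 h
      · exfalso
        obtain ⟨m, hm⟩ := hodd
        have hneg : dg (-1 : GL ι F) 1 = -dg (1 : GL ι F) (-1) :=
          Units.ext (by simp [dg_coe, fromBlocks_neg])
        have h' : y * dg (1 : GL ι F) (-1) = -(dg (1 : GL ι F) (-1) * y) := by
          rw [mul_inv_eq_iff_eq_mul, hneg, neg_mul] at h; exact h
        have hsq : Commute (y ^ 2) (dg (1 : GL ι F) (-1)) := by
          show y ^ 2 * dg (1 : GL ι F) (-1) = dg (1 : GL ι F) (-1) * y ^ 2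
          rw [pow_two, mul_assoc, h', mul_neg, ← mul_assoc, h', neg_mul, neg_neg, mul_assoc]
        have h1 : y ^ (2 * m + 1) = 1 := hm ▸ pow_orderOf_eq_one y
        have hc := (hsq.pow_left m).eq
        rw [← pow_mul] at hc
        have hyi : y ^ (2 * m) = y⁻¹ := eq_inv_of_mul_eq_one_left (by rw [← pow_succ]; exact h1)
        rw [hyi, inv_mul_eq_iff_eq_mul, ← mul_assoc, eq_mul_inv_iff_mul_eq] at hc
        apply tne
        rw [hneg]
        refine mul_right_cancel (b := y) ?_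
        rw [neg_mul]
        exact hc.trans h'
    obtain ⟨a, b, rfl⟩ := exists_dg hS h2 hty
    obtain ⟨na, nb⟩ := block_normalizes hS h2 hy
    have hpow := pow_orderOf_eq_one (dg a b)
    rw [dg_pow, ← dg_one] at hpow
    obtain ⟨pa, pb⟩ := dg_inj hpow
    obtain ⟨c₁, hc₁⟩ := hS.odd a (hodd.of_dvd_nat (orderOf_dvd_of_pow_eq_one pa)) na
    obtain ⟨c₂, hc₂⟩ := hS.odd b (hodd.of_dvd_nat (orderOf_dvd_of_pow_eq_one pb)) nb
    have hj := (conj_mem_of_normalizer hy (flip_mem hS)).1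
    rw [flip, dg_inv, dg_mul_ag, ag_mul_dg] at hj
    obtain ⟨h', -⟩ := mem_of_ag_mem hj
    rw [mul_one] at h'
    obtain ⟨k, hk⟩ := pow_two_mem hS.two h'
    have hcomm : Commute a b⁻¹ := Commute.inv_right (Units.ext (by
      rw [Units.val_mul, Units.val_mul, hc₁, hc₂]
      simp [smul_mul_assoc, mul_smul_comm, smul_smul, mul_comm]))
    have h1 : a * b⁻¹ = 1 := eq_one_of_odd_two hodd hk (by
      rw [hcomm.mul_pow, inv_pow, pa, pb, inv_one, mul_one])
    obtain rfl := mul_inv_eq_one.1 h1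
    exact ⟨c₁, by rw [dg_coe, hc₁, ← fromBlocks_one, fromBlocks_smul]; simp⟩
  · set P := (double S ⊓ sl (ι ⊕ ι) F) ⊔ Subgroup.zpowers y with hPdef
    have hP2 : IsPGroup 2 P := sup_zpowers_two (hP.to_le inf_le_left) hy2 hy
    have core : ∀ z ∈ P, z * dg (1 : GL ι F) (-1) = dg (1 : GL ι F) (-1) * z →
        z ∈ Subgroup.normalizer ((double S ⊓ sl (ι ⊕ ι) F : Subgroup (GL (ι ⊕ ι) F)) : Set (GL (ι ⊕ ι) F)) →
        z ∈ double S := by
      intro z hz hzt hzn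
      obtain ⟨a, b, rfl⟩ := exists_dg hS h2 hzt
      obtain ⟨na, nb⟩ := block_normalizes hS h2 hzn
      obtain ⟨k, hk⟩ := pow_two_mem hP2 hz
      rw [dg_pow, ← dg_one] at hk
      obtain ⟨pa, pb⟩ := dg_inj hk
      exact dg_mem (hS.maximal a ⟨k, pa⟩ na) (hS.maximal b ⟨k, pb⟩ nb)
    have hyP : y ∈ P := Subgroup.mem_sup_right (Subgroup.mem_zpowers y)
    rcases conj_t hS h2 hy with h | h
    · exact core y hyP (mul_inv_eq_iff_eq_mul.1 h) hy
    · have hf : (flip : GL (ι ⊕ ι) F) ∈ double S ⊓ sl (ι ⊕ ι) F := flip_mem hS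
      have hz := core (y * flip) (mul_mem hyP (Subgroup.mem_sup_left hf)) ?_
        (mul_mem hy (Subgroup.le_normalizer hf))
      · exact (Subgroup.mul_mem_cancel_right _ hf.1).1 hz
      · rw [mul_inv_eq_iff_eq_mul] at h
        have e1 : flip * dg (1 : GL ι F) (-1) = dg (-1 : GL ι F) 1 * flip := by
          rw [flip, ag_mul_dg, dg_mul_ag]; simp
        have e2 : y * dg (-1 : GL ι F) 1 = dg (1 : GL ι F) (-1) * y := by
          have hneg : dg (-1 : GL ι F) 1 = -dg (1 : GL ι F) (-1) :=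
            Units.ext (by simp [dg_coe, fromBlocks_neg])
          rw [hneg, mul_neg, h, hneg, neg_mul, neg_neg]
        rw [mul_assoc, e1, ← mul_assoc, e2, mul_assoc]

theorem good_double [Finite F] : Good (double S) := by
  haveI := hS.nontriv
  obtain ⟨hP, hodd, hmax⟩ := goodSL_double hS h2
  refine ⟨hP, ?_, ?_, ⟨⟨Sum.inl (Classical.arbitrary ι), Sum.inr (Classical.arbitrary ι), by simp⟩⟩, ?_, fun y h hy => hodd y h (normalizer_inf_sl hy),
    fun y h hy => hmax y h (normalizer_inf_sl hy)⟩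
  · rw [show (-1 : GL (ι ⊕ ι) F) = dg (-1 : GL ι F) (-1) from Units.ext (by
      simp [dg_coe, ← fromBlocks_one, fromBlocks_neg])]
    exact dg_mem hS.neg hS.neg
  · rw [Fintype.card_sum]; exact hS.even.add hS.even
  · intro X hX
    have hneg : (-1 : GL ι F) ∈ S ⊓ sl ι F :=
      ⟨hS.neg, mem_sl.2 (by simp [Matrix.det_neg, hS.even.neg_one_pow])⟩
    have hb : ∀ s ∈ S ⊓ sl ι F, X.toBlocks₁₁ * (s : Matrix ι ι F) = (s : Matrix ι ι F) * X.toBlocks₁₁ ∧
        X.toBlocks₁₂ = (s : Matrix ι ι F) * X.toBlocks₁₂ ∧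
        X.toBlocks₂₁ * (s : Matrix ι ι F) = X.toBlocks₂₁ := by
      intro s hs
      have h := hX _ (dg_sl_mem hS hs)
      rw [dg_coe, ← fromBlocks_toBlocks X, fromBlocks_multiply, fromBlocks_multiply, fromBlocks_inj] at h
      simp only [Units.val_one, mul_zero, zero_mul, add_zero, zero_add, mul_one, one_mul] at h
      exact ⟨h.1, h.2.1, h.2.2.1⟩
    have z : ∀ Y : Matrix ι ι F, Y = -Y → Y = 0 := fun Y hY => by
      have h' : (2 : F) • Y = 0 := by rw [two_smul]; nth_rewrite 2 [hY]; rw [add_neg_cancel]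
      exact (smul_eq_zero.1 h').resolve_left h2
    obtain ⟨-, n12, n21⟩ := hb _ hneg
    simp only [Units.val_neg, Units.val_one, neg_mul, one_mul, mul_neg, mul_one] at n12 n21
    obtain ⟨c, hc⟩ := hS.commutant X.toBlocks₁₁ fun s hs => (hb s hs).1
    have hf := hX _ (flip_mem hS)
    rw [show ((flip : GL (ι ⊕ ι) F) : Matrix (ι ⊕ ι) (ι ⊕ ι) F) = fromBlocks 0 1 (-1) 0 by
      simp [flip, ag_coe], ← fromBlocks_toBlocks X, fromBlocks_multiply, fromBlocks_multiply,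
      fromBlocks_inj] at hf
    simp only [mul_zero, zero_mul, add_zero, zero_add, mul_one, one_mul, mul_neg, neg_mul] at hf
    refine ⟨c, ?_⟩
    rw [← fromBlocks_toBlocks X, z _ n12, z _ n21.symm, ← hf.2.1, hc, ← fromBlocks_one, fromBlocks_smul]
    simp

end CfsgLib.PronPSL
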