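import Mathlib

/-!
Commuting elements of `PSL₂` and their lifts.
-/

set_option autoImplicit false

namespace CfsgLib.PronPSL

open Matrix

variable {F : Type*} [Field F]

theorem span_of_comm {A X : Matrix (Fin 2) (Fin 2) F} (hA : ∀ c : F, A ≠ c • 1) (h : X * A = A * X) :
    ∃ p r : F, X = p • A + r • 1 := by
  have h00 := congrFun (congrFun h 0) 0
  have h01 := congrFun (congrFun h 0) 1
  have h10 := congrFun (congrFun h 1) 0
  simp only [Matrix.mul_apply, Fin.sum_univ_two] at h00 h01 h10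
  by_cases hb : A 0 1 = 0
  · by_cases hc : A 1 0 = 0
    · have hd : A 1 1 - A 0 0 ≠ 0 := fun hd => hA (A 0 0) (by
        ext i j
        fin_cases i <;> fin_cases j <;> simp [hb, hc, sub_eq_zero.1 hd])
      refine ⟨(X 1 1 - X 0 0) / (A 1 1 - A 0 0),
        X 0 0 - (X 1 1 - X 0 0) / (A 1 1 - A 0 0) * A 0 0, ?_⟩
      have e1 : X 0 1 = 0 := (mul_eq_zero.1 (show X 0 1 * (A 1 1 - A 0 0) = 0 by rw [hb] at h01; linear_combination h01)).resolve_right hd
      have e2 : X 1 0 = 0 := (mul_eq_zero.1 (show X 1 0 * (A 1 1 - A 0 0) = 0 by rw [hc] at h10; linear_combination -h10)).resolve_right hd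
      ext i j
      fin_cases i <;> fin_cases j <;> simp [hb, hc, e1, e2]
      field_simp
      ring
    · refine ⟨X 1 0 / A 1 0, X 0 0 - X 1 0 / A 1 0 * A 0 0, ?_⟩
      ext i j
      fin_cases i <;> fin_cases j <;> simp [hb, hc]
      · rw [hb] at h00; exact (mul_eq_zero.1 (show X 0 1 * A 1 0 = 0 by linear_combination h00)).resolve_right hc
      · field_simp; linear_combination h10
  · refine ⟨X 0 1 / A 0 1, X 0 0 - X 0 1 / A 0 1 * A 0 0, ?_⟩
    ext i j
    fin_cases i <;> fin_cases j <;> simp [hb]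
    · field_simp; linear_combination -h00
    · field_simp; linear_combination -h01

theorem comm_of_comm {A X Y : Matrix (Fin 2) (Fin 2) F} (hA : ∀ c : F, A ≠ c • 1) (hX : X * A = A * X)
    (hY : Y * A = A * Y) : X * Y = Y * X := by
  obtain ⟨p, r, rfl⟩ := span_of_comm hA hX
  obtain ⟨p', r', rfl⟩ := span_of_comm hA hY
  simp only [mul_add, add_mul, smul_mul_assoc, mul_smul_comm, smul_smul, mul_one, one_mul]
  module

/-- Square roots of minus one in a centraliser. -/
theorem eq_or_neg {A Z : Matrix (Fin 2) (Fin 2) F} (h2 : (2 : F) ≠ 0) (hA : ∀ c : F, A ≠ c • 1)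
    (hAA : A * A = -1) (hZZ : Z * Z = -1) (hZ : ∀ c : F, Z ≠ c • 1) (h : Z * A = A * Z) : Z = A ∨ Z = -A := by
  obtain ⟨p, r, rfl⟩ := span_of_comm hA h
  have e : (r * r - p * p + 1) • (1 : Matrix (Fin 2) (Fin 2) F) + (2 * (p * r)) • A = 0 := by
    have : (p • A + r • (1 : Matrix (Fin 2) (Fin 2) F)) * (p • A + r • 1) =
        (r * r - p * p) • 1 + (2 * (p * r)) • A := by
      simp only [mul_add, add_mul, smul_mul_assoc, mul_smul_comm, smul_smul, mul_one, one_mul, hAA, smul_neg]
      module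
    rw [this] at hZZ
    rw [add_smul, one_smul, add_right_comm, hZZ, neg_add_cancel]
  have hpr : (2 : F) * (p * r) = 0 := by
    by_contra hne
    refine hA (-((r * r - p * p + 1) / (2 * (p * r)))) ?_
    rw [← sub_eq_zero, ← smul_eq_zero_iff_right hne]
    rw [smul_sub, smul_smul, mul_neg, mul_div_cancel₀ _ hne, neg_smul, sub_neg_eq_add, add_comm]
    exact e
  rw [hpr, zero_smul, add_zero] at e
  have h1 := (smul_eq_zero.1 e).resolve_right one_ne_zero
  rcases mul_eq_zero.1 ((mul_eq_zero.1 hpr).resolve_left h2) with hp | hr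
  · exact absurd (by rw [hp, zero_smul, zero_add]) (hZ r)
  · subst hr
    rcases mul_self_eq_one_iff.1 (show p * p = 1 by linear_combination -h1) with rfl | rfl
    · left; rw [one_smul, zero_smul, add_zero]
    · right; rw [neg_smul, one_smul, zero_smul, add_zero]

variable [Finite F]

local notation "SL2" => SpecialLinearGroup (Fin 2) F
local notation "π" => QuotientGroup.mk' (Subgroup.center (SpecialLinearGroup (Fin 2) F))

theorem center_cases {z : SL2} (hz : z ∈ Subgroup.center SL2) :
    (z : Matrix (Fin 2) (Fin 2) F) = 1 ∨ (z : Matrix (Fin 2) (Fin 2) F) = -1 := by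
  obtain ⟨r, hr, hz⟩ := Matrix.SpecialLinearGroup.mem_center_iff.1 hz
  rw [Fintype.card_fin, pow_two] at hr
  rw [← hz]
  rcases mul_self_eq_one_iff.1 hr with rfl | rfl
  · left; simp
  · right; ext i j; fin_cases i <;> fin_cases j <;> simp

theorem lift_eq_pm {X Y : SL2} (h : π X = π Y) :
    (X : Matrix (Fin 2) (Fin 2) F) = Y ∨ (X : Matrix (Fin 2) (Fin 2) F) = -(Y : Matrix (Fin 2) (Fin 2) F) := by
  obtain ⟨z, hz, rfl⟩ := (QuotientGroup.mk'_eq_mk' _).1 h.symm
  rcases center_cases hz with e | e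
  · left; show Y.1 * z.1 = Y.1; rw [e, mul_one]
  · right; show Y.1 * z.1 = -Y.1; rw [e, mul_neg, mul_one]

theorem neg_ne (h2 : (2 : F) ≠ 0) (X : SL2) :
    (X : Matrix (Fin 2) (Fin 2) F) ≠ -(X : Matrix (Fin 2) (Fin 2) F) := fun h => by
  have h' : (2 : F) • (X : Matrix (Fin 2) (Fin 2) F) = 0 := by
    rw [two_smul]; nth_rewrite 2 [h]; rw [add_neg_cancel]
  have h0 := (smul_eq_zero.1 h').resolve_left h2
  have := X.2
  rw [h0, Matrix.det_zero] at this
  exact zero_ne_one this

/-- An element of odd order lifts to one commuting with the lifts of what it commutes with. -/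
theorem lift_comm (h2 : (2 : F) ≠ 0) {X Y : SL2} (hodd : Odd (orderOf (π X))) (h : Commute (π X) (π Y)) :
    (X : Matrix (Fin 2) (Fin 2) F) * Y = (Y : Matrix (Fin 2) (Fin 2) F) * X := by
  rcases lift_eq_pm (show π (X * Y) = π (Y * X) by rw [map_mul, map_mul, h.eq]) with e | e
  · exact e
  exfalso
  set A := (X : Matrix (Fin 2) (Fin 2) F)
  set B := (Y : Matrix (Fin 2) (Fin 2) F)
  change A * B = -(B * A) at e
  have hk : ∀ k : ℕ, A ^ (2 * k + 1) * B = -(B * A ^ (2 * k + 1)) := by
    intro k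
    induction k with
    | zero => simpa using e
    | succ k ih =>
      have h2y : A * A * B = B * (A * A) := by
        rw [mul_assoc, e, mul_neg, ← mul_assoc, e, neg_mul, neg_neg, mul_assoc]
      rw [show 2 * (k + 1) + 1 = 2 + (2 * k + 1) by ring, pow_add, pow_two, mul_assoc, ih, mul_neg,
        ← mul_assoc, h2y, mul_assoc]
  obtain ⟨m, hm⟩ := hodd
  have h1 : π (X ^ orderOf (π X)) = 1 := by rw [map_pow, pow_orderOf_eq_one]
  have hz : X ^ orderOf (π X) ∈ Subgroup.center SL2 := (QuotientGroup.eq_one_iff _).1 h1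
  have := hk m
  rw [← hm] at this
  rcases center_cases hz with h' | h' <;>
    (rw [show A ^ orderOf (π X) = ((X ^ orderOf (π X) : SL2) : Matrix (Fin 2) (Fin 2) F) from
      (Matrix.SpecialLinearGroup.coe_pow X _).symm, h'] at this
     simp only [one_mul, mul_one, neg_mul, mul_neg, neg_neg] at this)
  · exact neg_ne h2 Y this
  · exact neg_ne h2 Y this.symm

/-- An involution lifts to a non-scalar square root of minus one. -/
theorem lift_involution (h20 : (2 : F) ≠ 0) {U : SL2} (h1 : π U ≠ 1) (h : π U * π U = 1) :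
    (∀ c : F, (U : Matrix (Fin 2) (Fin 2) F) ≠ c • 1) ∧
      (U : Matrix (Fin 2) (Fin 2) F) * U = -1 := by
  have hns : ∀ c : F, (U : Matrix (Fin 2) (Fin 2) F) ≠ c • 1 := fun c hc => h1 (by
    refine (QuotientGroup.eq_one_iff U).2 (Subgroup.mem_center_iff.2 fun g => Subtype.ext ?_)
    show g.1 * U.1 = U.1 * g.1
    rw [hc, mul_smul_comm, smul_mul_assoc, mul_one, one_mul])
  refine ⟨hns, ?_⟩
  have hmem : U * U ∈ Subgroup.center SL2 := (QuotientGroup.eq_one_iff _).1 (by rw [← h]; rfl)
  rcases center_cases hmem with e | e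
  · exfalso
    have e' : U.1 * U.1 = 1 := e
    have hd := U.2
    rw [Matrix.det_fin_two] at hd
    have a00 := congrFun (congrFun e' 0) 0
    have a01 := congrFun (congrFun e' 0) 1
    have a10 := congrFun (congrFun e' 1) 0
    have a11 := congrFun (congrFun e' 1) 1
    simp [Matrix.mul_apply, Fin.sum_univ_two] at a00 a01 a10 a11
    have h0 : U.1 0 0 * (U.1 0 0 + U.1 1 1) = 2 := by linear_combination a00 + hd
    have ht : U.1 0 0 + U.1 1 1 ≠ 0 := fun ht => by
      rw [ht, mul_zero] at h0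
      have : U.1 0 0 * U.1 0 0 + U.1 0 1 * U.1 1 0 = -1 := by linear_combination U.1 0 0 * ht - hd
      rw [a00] at this
      exact h20 (by linear_combination this)
    have e01 : U.1 0 1 = 0 := (mul_eq_zero.1 (show U.1 0 1 * (U.1 0 0 + U.1 1 1) = 0 by linear_combination a01)).resolve_right ht
    have e10 : U.1 1 0 = 0 := (mul_eq_zero.1 (show U.1 1 0 * (U.1 0 0 + U.1 1 1) = 0 by linear_combination a10)).resolve_right ht
    have ed : U.1 0 0 = U.1 1 1 := by
      rw [e01] at a00 hd
      rw [e10] at a11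
      linear_combination U.1 1 1 * a00 - U.1 0 0 * hd
    exact hns (U.1 0 0) (by ext i j; fin_cases i <;> fin_cases j <;> simp [e01, e10, ← ed])
  · exact e

end CfsgLib.PronPSL
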