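import Cfsg.Agent.PronPSL.Lift
import Cfsg.Agent.PronPSL.Pairs
import Cfsg.Agent.SLn.Unipotent
import Cfsg.Agent.SLn.SmallPSL
import Cfsg.Agent.SLn.Card
import Cfsg.Agent.S0799

/-!
`PSL₂(q)` with four-group Sylow two-subgroups.
-/

set_option autoImplicit false

namespace CfsgLib.PronPSL

open Matrix

variable {F : Type*} [Field F] [Fintype F]

local notation "SL2" => SpecialLinearGroup (Fin 2) F
local notation "PSL2" => ProjectiveSpecialLinearGroup (Fin 2) F

theorem even_q_mul (q : ℕ) : Even (q * (q ^ 2 - 1)) := by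
  rcases Nat.even_or_odd q with h | h
  · exact h.mul_right _
  · refine Even.mul_left ?_ _
    obtain ⟨k, rfl⟩ := h
    exact ⟨2 * (k * k) + 2 * k, by
      have : (2 * k + 1) ^ 2 = 4 * (k * k) + 4 * k + 1 := by ring
      omega⟩

theorem even_psl_card {q c : ℕ} (h : c * Nat.gcd 2 (q - 1) = q * (q ^ 2 - 1)) (hq : 1 < q) : Even c := by
  rcases Nat.even_or_odd q with he | ho
  · have hg : Nat.gcd 2 (q - 1) = 1 := Nat.coprime_two_left.2 (Nat.Even.sub_odd (by omega) he odd_one)
    rw [hg, mul_one] at h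
    rw [h]; exact even_q_mul q
  · obtain ⟨k, rfl⟩ := ho
    have hg : Nat.gcd 2 (2 * k + 1 - 1) = 2 := Nat.gcd_eq_left (by omega)
    rw [hg] at h
    obtain ⟨m, hm⟩ := Nat.even_mul_succ_self k
    refine ⟨2 * (2 * k + 1) * m / 1, ?_⟩
    have e : (2 * k + 1) ^ 2 - 1 = 8 * m := by
      have : (2 * k + 1) ^ 2 = 4 * (k * (k + 1)) + 1 := by ring
      omega
    rw [e] at h
    rw [Nat.div_one]
    have : (2 * k + 1) * (8 * m) = 2 * (2 * (2 * k + 1) * m + 2 * (2 * k + 1) * m) := by ring
    omega

/-- Subgroups of odd order are solvable. -/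
theorem odd_subgroup_solvable (h2 : (2 : F) ≠ 0) (K : Subgroup (ProjectiveSpecialLinearGroup (Fin 2) F))
    (hK : Odd (Nat.card K)) : Group.IsSolvable K := by
  classical
  obtain ⟨p, hc⟩ := CharP.exists F
  haveI := Fact.mk ((CharP.char_is_prime_or_zero F p).resolve_right (CharP.char_ne_zero_of_finite F p))
  have hne : ∀ {m : ℕ}, Nat.card K = m → Even m → False := fun h he => by
    rw [h] at hK; exact (Nat.not_even_iff_odd.2 hK) he
  rcases Cfsg.Agent.S0799.result (q := Fintype.card F) rfl p K with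
    ⟨k, -, ⟨hcyc, -⟩ | ⟨⟨e⟩⟩⟩ | ⟨P, L, hL, ⟨e⟩⟩ | ⟨⟨e⟩⟩ | ⟨⟨e⟩⟩ | ⟨⟨e⟩⟩ | ⟨L, iL, iLf, m, -, ⟨⟨e⟩⟩ | ⟨⟨e⟩⟩⟩
  · haveI := hcyc
    exact Group.isSolvable_of_comm fun a b => mul_comm' a b
  · exact (hne ((Nat.card_congr e.toEquiv).trans DihedralGroup.nat_card) (even_two_mul k)).elim
  · -- inside a Borel subgroup
    set π := QuotientGroup.mk' (Subgroup.center SL2)
    obtain ⟨U, hU⟩ := CfsgLib.SLn.Unip.exists_sylow_eq_upperUni (K := F) (n := 2) p
    obtain ⟨g, hg⟩ := MulAction.exists_smul_eq PSL2 (U.mapSurjective (QuotientGroup.mk'_surjective _)) P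
    -- the Borel subgroup upstairs
    let B : Subgroup SL2 := Subgroup.normalizer (U : Set SL2)
    have hB : Group.IsSolvable B := by
      have hup : ∀ x : B, CfsgLib.SLn.Unip.IsUpper (x : SL2) := fun x =>
        CfsgLib.SLn.Unip.isUpper_of_conj_mem fun u hu => by
          have := (Subgroup.mem_normalizer_iff.1 x.2 u).1 (by rw [← hU] at hu; exact hu)
          rw [← hU]; exact this
      let f : B →* F :=
        { toFun := fun x => ((x : SL2) : Matrix (Fin 2) (Fin 2) F) 0 0
          map_one' := rfl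
          map_mul' := fun x y => (CfsgLib.SLn.Unip.mul_entry (hup x) (hup y)).2 0 }
      let f' : B →* Fˣ := f.toHomUnits
      haveI : Group.IsSolvable f'.ker := by
        have hform : ∀ x : f'.ker, ∃ b : F,
            ((x.1 : SL2) : Matrix (Fin 2) (Fin 2) F) = !![1, b; 0, 1] := by
          intro x
          have h0 : ((x.1 : SL2) : Matrix (Fin 2) (Fin 2) F) 0 0 = 1 :=
            congrArg Units.val (MonoidHom.mem_ker.1 x.2)
          have h10 := hup x.1 1 0 (by decide)
          have hd := (x.1 : SL2).2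
          rw [Matrix.det_fin_two, h0, h10, one_mul, mul_zero, sub_zero] at hd
          refine ⟨((x.1 : SL2) : Matrix (Fin 2) (Fin 2) F) 0 1, ?_⟩
          ext i j; fin_cases i <;> fin_cases j <;> simp [h0, h10, hd]
        refine Group.isSolvable_of_comm fun a b => ?_
        obtain ⟨x, hx⟩ := hform a
        obtain ⟨y, hy⟩ := hform b
        refine Subtype.ext (Subtype.ext (Subtype.ext ?_))
        show (a.1 : SL2).1 * (b.1 : SL2).1 = (b.1 : SL2).1 * (a.1 : SL2).1
        rw [hx, hy, Matrix.mul_fin_two, Matrix.mul_fin_two]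
        simp [add_comm]
      exact Group.isSolvable_of_ker_le_range f'.ker.subtype f' (by simp)
    -- every element of `L` is the image of an element of a conjugate of it
    have hmem : ∀ x ∈ L, g⁻¹ * x * g ∈ B.map π := by
      intro x hx
      obtain ⟨X, hX⟩ := QuotientGroup.mk'_surjective (Subgroup.center SL2) (g⁻¹ * x * g)
      refine ⟨X, ?_, hX⟩
      refine Subgroup.mem_normalizer_iff_map_conj_eq.2 (Subgroup.eq_of_le_of_card_ge ?_
        (by rw [Subgroup.card_map_of_injective (MulAut.conj X).injective]))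
      rintro _ ⟨u, hu, rfl⟩
      show X * u * X⁻¹ ∈ U
      have hxP : g⁻¹ * x * g ∈ Subgroup.normalizer
          (((U.mapSurjective (QuotientGroup.mk'_surjective (Subgroup.center SL2))) : Subgroup PSL2) : Set PSL2) := by
        refine Sylow.smul_eq_iff_mem_normalizer.1 ?_
        have h1 : x • P = P := Sylow.smul_eq_iff_mem_normalizer.2 (hL hx)
        rw [mul_smul, mul_smul, hg, h1, ← hg, inv_smul_smul]
      have h1 : π (X * u * X⁻¹) ∈ (U : Subgroup SL2).map π := by
        rw [map_mul, map_mul, map_inv, hX]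
        exact (Subgroup.mem_normalizer_iff.1 hxP (π u)).1 ⟨u, hu, rfl⟩
      obtain ⟨u', hu', he⟩ := h1
      obtain ⟨z, hz, hzu⟩ := (QuotientGroup.mk'_eq_mk' _).1 he
      -- the central part is trivial
      obtain ⟨k, hk⟩ := U.isPGroup' ⟨u, hu⟩
      obtain ⟨l, hl⟩ := U.isPGroup' ⟨u', hu'⟩
      have hk' : (X * u * X⁻¹) ^ p ^ k = 1 := by
        rw [conj_pow, show u ^ p ^ k = 1 from congrArg Subtype.val hk, mul_one, mul_inv_cancel]
      have hzpow : z ^ p ^ (k + l) = 1 := by
        have e1 : (u' * z) ^ p ^ (k + l) = 1 := by rw [hzu, pow_add, pow_mul, hk', one_pow]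
        rw [(show Commute u' z from Subgroup.mem_center_iff.1 hz u').mul_pow,
          show u' ^ p ^ (k + l) = 1 by
            rw [add_comm, pow_add, pow_mul, show u' ^ p ^ l = 1 from congrArg Subtype.val hl, one_pow],
          one_mul] at e1
        exact e1
      rw [← hzu, CfsgLib.SLn.Unip.center_eq_one_of_pow p hz _ hzpow, mul_one]
      exact hu'
    haveI := hB
    haveI : Group.IsSolvable (B.map π) := Group.isSolvable_of_surjective (π.subgroupMap_surjective B)
    let φ : L →* B.map π :=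
      { toFun := fun x => ⟨g⁻¹ * x * g, hmem x x.2⟩
        map_one' := Subtype.ext (by simp)
        map_mul' := fun x y => Subtype.ext (by simp [mul_assoc]) }
    haveI : Group.IsSolvable L := Group.isSolvable_of_isSolvable_injective (f := φ) fun x y h => Subtype.ext (by
      exact mul_left_cancel (mul_right_cancel (show g⁻¹ * (x : PSL2) * g = g⁻¹ * (y : PSL2) * g from
        congrArg Subtype.val h)))
    exact Group.isSolvable_of_surjective (f := e.symm.toMonoidHom) e.symm.surjective
  · exact (hne (Nat.card_congr e.toEquiv) (by rw [Nat.card_eq_fintype_card]; decide)).elim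
  · exact (hne (Nat.card_congr e.toEquiv) (by rw [Nat.card_perm, Nat.card_eq_fintype_card, Fintype.card_fin]; decide)).elim
  · exact (hne (Nat.card_congr e.toEquiv) (by rw [Nat.card_eq_fintype_card]; decide)).elim
  · refine (hne (Nat.card_congr e.toEquiv) ?_).elim
    have hdvd : Nat.card (ProjectiveSpecialLinearGroup (Fin 2) L) * Nat.gcd 2 (Fintype.card L - 1) =
        Fintype.card L * (Fintype.card L ^ 2 - 1) := by
      rw [mul_comm]; exact CfsgLib.SLn.card_PSL2_eq L
    exact even_psl_card hdvd Fintype.one_lt_card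
  · refine (hne (Nat.card_congr e.toEquiv) ?_).elim
    rw [CfsgLib.SLn.card_PGL_eq, CfsgLib.SL2.card_SL2]
    exact even_q_mul _

end CfsgLib.PronPSL
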