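import Cfsg.Agent.PronPSL.Good

/-!
Dimension two in odd characteristic.
-/

set_option autoImplicit false

namespace CfsgLib.PronPSL

open Matrix

variable {F : Type*} [Field F]

/-- The matrix of `a + b i`. -/
def el (a b : F) : Matrix (Fin 2) (Fin 2) F := !![a, -b; b, a]

theorem el_mul (a b a' b' : F) : el a b * el a' b' = el (a * a' - b * b') (a * b' + b * a') := by
  simp only [el, Matrix.mul_fin_two]
  ext i j
  fin_cases i <;> fin_cases j <;> simp <;> ring

theorem el_det (a b : F) : (el a b).det = a * a + b * b := by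
  rw [el, Matrix.det_fin_two_of]; ring

theorem el_inj {a b a' b' : F} (h : el a b = el a' b') : a = a' ∧ b = b' :=
  ⟨by simpa [el] using congrFun (congrFun h 0) 0, by simpa [el] using congrFun (congrFun h 1) 0⟩

theorem el_scalar (a : F) : el a 0 = a • (1 : Matrix (Fin 2) (Fin 2) F) := by
  ext i j; fin_cases i <;> fin_cases j <;> simp [el]

theorem exists_el {X : Matrix (Fin 2) (Fin 2) F} (h : X * el 0 1 = el 0 1 * X) :
    ∃ a b, X = el a b := by
  refine ⟨X 0 0, X 1 0, ?_⟩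
  have h00 := congrFun (congrFun h 0) 0
  have h10 := congrFun (congrFun h 1) 0
  simp [el, Matrix.mul_apply, Fin.sum_univ_two] at h00 h10
  ext i j
  fin_cases i <;> fin_cases j <;> simp [el]
  · exact h00
  · exact h10

theorem el_comm_I (a b : F) : el a b * el 0 1 = el 0 1 * el a b := by
  rw [el_mul, el_mul]; congr 1 <;> ring

theorem sq_scalar_of_anti {X : Matrix (Fin 2) (Fin 2) F} (h : X * el 0 1 = -(el 0 1 * X)) :
    ∃ s : F, X * X = s • 1 := by
  refine ⟨X 0 0 * X 0 0 + X 0 1 * X 1 0, ?_⟩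
  have h10 := congrFun (congrFun h 1) 0
  simp [el, Matrix.mul_apply, Matrix.vecMul, dotProduct, Fin.sum_univ_two] at h10
  ext i j
  fin_cases i <;> fin_cases j <;> simp [Matrix.mul_apply, Matrix.vecMul, dotProduct, Fin.sum_univ_two, h10] <;> ring

/-- The element `i`. -/
def eI : GL (Fin 2) F := Matrix.GeneralLinearGroup.mkOfDetNeZero (el 0 1) (by rw [el_det]; simp)

theorem eI_coe : ((eI : GL (Fin 2) F) : Matrix (Fin 2) (Fin 2) F) = el 0 1 := rfl

theorem eI_sq : (eI : GL (Fin 2) F) * eI = -1 :=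
  Units.ext (by
    rw [Units.val_mul, eI_coe, el_mul, Units.val_neg, Units.val_one]
    ext i j; fin_cases i <;> fin_cases j <;> simp [el])

variable (F) in
/-- The centraliser of `i`. -/
def UU : Subgroup (GL (Fin 2) F) := Subgroup.centralizer {eI}

theorem mem_UU {g : GL (Fin 2) F} : g ∈ UU F ↔ g * eI = eI * g := by
  rw [UU, Subgroup.mem_centralizer_singleton_iff]

theorem exists_el_of_mem {g : GL (Fin 2) F} (hg : g ∈ UU F) :
    ∃ a b, (g : Matrix (Fin 2) (Fin 2) F) = el a b :=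
  exists_el (congrArg (fun z : GL (Fin 2) F => (z : Matrix (Fin 2) (Fin 2) F)) (mem_UU.1 hg))

theorem UU_comm {g h : GL (Fin 2) F} (hg : g ∈ UU F) (hh : h ∈ UU F) : g * h = h * g := by
  obtain ⟨a, b, ha⟩ := exists_el_of_mem hg
  obtain ⟨c, d, hc⟩ := exists_el_of_mem hh
  refine Units.ext ?_
  rw [Units.val_mul, Units.val_mul, ha, hc, el_mul, el_mul]
  congr 1 <;> ring

theorem eI_mem : (eI : GL (Fin 2) F) ∈ UU F := mem_UU.2 rfl

variable (F) in
/-- Two-elements commuting with `i`. -/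
def CC : Subgroup (GL (Fin 2) F) where
  carrier := {g | g ∈ UU F ∧ ∃ k : ℕ, g ^ 2 ^ k = 1}
  one_mem' := ⟨one_mem _, 0, by simp⟩
  mul_mem' := by
    rintro a b ⟨ha, k, hk⟩ ⟨hb, l, hl⟩
    refine ⟨mul_mem ha hb, k + l, ?_⟩
    rw [(show Commute a b from UU_comm ha hb).mul_pow, pow_add, pow_mul, hk, one_pow, mul_comm,
      pow_mul, hl, one_pow, mul_one]
  inv_mem' := by
    rintro a ⟨ha, k, hk⟩
    exact ⟨inv_mem ha, k, by rw [inv_pow, hk, inv_one]⟩

theorem neg_one_mem_CC : (-1 : GL (Fin 2) F) ∈ CC F :=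
  ⟨mem_UU.2 (by rw [neg_mul, one_mul, mul_neg, mul_one]), 1, by simp⟩

theorem eI_mem_CC : (eI : GL (Fin 2) F) ∈ CC F :=
  ⟨eI_mem, 2, by rw [show (2 : ℕ) ^ 2 = 2 * 2 from rfl, pow_mul, pow_two eI, eI_sq]; simp⟩

/-- An anticommuting square root of minus one. -/
structure IsJ (j : GL (Fin 2) F) : Prop where
  anti : j * eI = -(eI * j)
  sq : j * j = -1
  det : (j : Matrix (Fin 2) (Fin 2) F).det = 1

theorem exists_J [Finite F] (h2 : (2 : F) ≠ 0) : ∃ j : GL (Fin 2) F, IsJ j := by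
  classical
  haveI := Fintype.ofFinite F
  have hodd : Fintype.card F % 2 = 1 :=
    FiniteField.odd_card_of_char_ne_two fun h => by
      haveI := ringChar.of_eq h
      exact h2 (CharP.cast_eq_zero F 2)
  obtain ⟨a, b, hab⟩ := FiniteField.exists_root_sum_quadratic
    (f := (Polynomial.X ^ 2 : Polynomial F)) (g := Polynomial.X ^ 2 + Polynomial.C 1)
    (Polynomial.degree_X_pow 2) (Polynomial.degree_X_pow_add_C (by norm_num) 1) hodd
  simp at hab
  have hd : (!![a, b; b, -a] : Matrix (Fin 2) (Fin 2) F).det = 1 := by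
    rw [Matrix.det_fin_two_of]; linear_combination -hab
  refine ⟨Matrix.GeneralLinearGroup.mkOfDetNeZero !![a, b; b, -a] (by rw [hd]; exact one_ne_zero), ?_, ?_, hd⟩
  · refine Units.ext ?_
    rw [Units.val_mul, Units.val_neg, Units.val_mul, eI_coe]
    show !![a, b; b, -a] * el 0 1 = -(el 0 1 * !![a, b; b, -a])
    ext i j; fin_cases i <;> fin_cases j <;> simp [el, Matrix.mul_apply, Fin.sum_univ_two]
  · refine Units.ext ?_
    rw [Units.val_mul, Units.val_neg, Units.val_one]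
    show !![a, b; b, -a] * !![a, b; b, -a] = -1
    ext i j; fin_cases i <;> fin_cases j <;> simp [Matrix.mul_apply, Fin.sum_univ_two] <;>
      first | ring1 | linear_combination hab | linear_combination -hab

variable {j : GL (Fin 2) F} (hj : IsJ j)
include hj

theorem j_inv : j⁻¹ = -j := inv_eq_of_mul_eq_one_right (by rw [mul_neg, hj.sq, neg_neg])

theorem j_conj_UU {g : GL (Fin 2) F} (hg : g ∈ UU F) : j * g * j⁻¹ ∈ UU F := by
  refine mem_UU.2 ?_
  have h1 : j⁻¹ * eI = -(eI * j⁻¹) := by rw [j_inv hj, neg_mul, hj.anti, mul_neg]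
  have h2' : eI * j = -(j * eI) := by rw [hj.anti, neg_neg]
  rw [mul_assoc, h1, mul_neg, ← mul_assoc, mul_assoc j g, mem_UU.1 hg, ← mul_assoc, ← mul_assoc,
    ← mul_assoc, h2', neg_mul, neg_mul]

theorem j_conj_CC {g : GL (Fin 2) F} (hg : g ∈ CC F) : j * g * j⁻¹ ∈ CC F := by
  obtain ⟨k, hk⟩ := hg.2
  exact ⟨j_conj_UU hj hg.1, k, by rw [conj_pow, hk, mul_one, mul_inv_cancel]⟩

/-- A Sylow two-subgroup of `GL₂`. -/
def WW : Subgroup (GL (Fin 2) F) where
  carrier := {g | g ∈ CC F ∨ g * j ∈ CC F}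
  one_mem' := Or.inl (one_mem _)
  mul_mem' := by
    have conj' : ∀ b ∈ CC F, j⁻¹ * b * j ∈ CC F := fun b hb => by
      rw [j_inv hj, neg_mul, neg_mul, ← mul_neg, ← j_inv hj]; exact j_conj_CC hj hb
    rintro a b (ha | ha) (hb | hb)
    · exact Or.inl (mul_mem ha hb)
    · exact Or.inr (by rw [mul_assoc]; exact mul_mem ha hb)
    · refine Or.inr ?_
      rw [show a * b * j = (a * j) * (j⁻¹ * b * j) by group]
      exact mul_mem ha (conj' b hb)
    · refine Or.inl ?_
      have h := mul_mem ha (mul_mem (j_conj_CC hj hb) neg_one_mem_CC)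
      rw [show a * j * (j * (b * j) * j⁻¹ * -1) = a * (j * j) * b * -1 by group, hj.sq] at h
      simpa using h
  inv_mem' := by
    rintro a (ha | ha)
    · exact Or.inl (inv_mem ha)
    · refine Or.inr ?_
      have h := mul_mem (j_conj_CC hj (inv_mem ha)) neg_one_mem_CC
      rw [← hj.sq, show j * (a * j)⁻¹ * j⁻¹ * (j * j) = a⁻¹ * j by group] at h
      exact h

theorem j_mem : j ∈ WW hj := Or.inr (by rw [hj.sq]; exact neg_one_mem_CC)

theorem CC_le : CC F ≤ WW hj := fun _ hg => Or.inl hg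

omit hj in
theorem eI_det : ((eI : GL (Fin 2) F) : Matrix (Fin 2) (Fin 2) F).det = 1 := by
  rw [eI_coe, el_det]; ring

theorem WW_two : IsPGroup 2 (WW hj) := by
  rintro ⟨g, hg | hg⟩
  · obtain ⟨k, hk⟩ := hg.2
    exact ⟨k, Subtype.ext hk⟩
  · have h : g * g ∈ CC F := by
      have := mul_mem (mul_mem hg neg_one_mem_CC) (j_conj_CC hj hg)
      rwa [← hj.sq, show g * j * (j * j) * (j * (g * j) * j⁻¹) = g * (j * j) * (j * j) * g by group,
        hj.sq, mul_neg, mul_one, mul_neg, mul_one, neg_neg] at this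
    obtain ⟨k, hk⟩ := h.2
    exact ⟨k + 1, Subtype.ext (show g ^ 2 ^ (k + 1) = 1 by rw [pow_succ', pow_mul, pow_two, hk])⟩

omit hj in
theorem neg_ne_self (h2 : (2 : F) ≠ 0) (g : GL (Fin 2) F) : g ≠ -g := fun h => by
  have h' : (2 : F) • (g : Matrix (Fin 2) (Fin 2) F) = 0 := by
    rw [two_smul]
    nth_rewrite 2 [h]
    rw [Units.val_neg, add_neg_cancel]
  exact g.ne_zero ((smul_eq_zero.1 h').resolve_left h2)

theorem anti_of_mem_WW {g : GL (Fin 2) F} (hg : g * j ∈ CC F) : g * eI = -(eI * g) := by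
  have h1 := mem_UU.1 hg.1
  rw [mul_assoc, hj.anti, mul_neg, ← mul_assoc, ← mul_assoc] at h1
  refine mul_right_cancel (b := j) ?_
  rw [neg_mul, ← h1, neg_neg]

theorem mem_CC_of_WW (h2 : (2 : F) ≠ 0) {g : GL (Fin 2) F} (hg : g ∈ WW hj) (hc : g * eI = eI * g) :
    g ∈ CC F :=
  hg.resolve_right fun h => by
    have := anti_of_mem_WW hj h
    rw [hc] at this
    exact neg_ne_self h2 _ this

omit hj in
theorem scalar_of_UU_anti (h2 : (2 : F) ≠ 0) {X : Matrix (Fin 2) (Fin 2) F} {j : GL (Fin 2) F}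
    (hj : IsJ j) (hI : X * el 0 1 = el 0 1 * X) (hJ : X * j = (j : Matrix (Fin 2) (Fin 2) F) * X) :
    ∃ c : F, X = c • 1 := by
  obtain ⟨a, b, rfl⟩ := exists_el hI
  have hab : el a b = a • 1 + b • el 0 1 := by
    ext i k; fin_cases i <;> fin_cases k <;> simp [el]
  have ha := congrArg (fun z : GL (Fin 2) F => (z : Matrix (Fin 2) (Fin 2) F)) hj.anti
  simp only [Units.val_mul, Units.val_neg, eI_coe] at ha
  rw [hab, add_mul, mul_add, smul_mul_assoc, smul_mul_assoc, mul_smul_comm, mul_smul_comm, one_mul,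
    mul_one, add_right_inj, ha, smul_neg] at hJ
  have hb : (2 * b) • (el 0 1 * (j : Matrix (Fin 2) (Fin 2) F)) = 0 := by
    rw [mul_smul, two_smul]
    nth_rewrite 2 [hJ]
    rw [add_neg_cancel]
  have hne : el 0 1 * (j : Matrix (Fin 2) (Fin 2) F) ≠ 0 := by
    rw [← eI_coe, ← Units.val_mul]; exact Units.ne_zero _
  have hb0 : b = 0 := (mul_eq_zero.1 ((smul_eq_zero.1 hb).resolve_right hne)).resolve_left h2
  exact ⟨a, by rw [hb0, el_scalar]⟩

theorem conj_I [Finite F] (h2 : (2 : F) ≠ 0) {R : Subgroup (GL (Fin 2) F)} (hR : R ≤ WW hj)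
    {c : GL (Fin 2) F} (hc : c ∈ R) (hcU : c ∈ UU F)
    (hc2 : ∀ s : F, (c : Matrix (Fin 2) (Fin 2) F) * c ≠ s • 1)
    {y : GL (Fin 2) F} (hy : y ∈ Subgroup.normalizer (R : Set (GL (Fin 2) F))) :
    y * eI = eI * y ∨ y * eI = -(eI * y) := by
  set d := y * c * y⁻¹ with hd
  have hdW := hR (conj_mem_of_normalizer hy hc)
  have hdU : d ∈ UU F := hdW.elim (fun h => h.1) fun h => by
    exfalso
    have ha := congrArg (fun z : GL (Fin 2) F => (z : Matrix (Fin 2) (Fin 2) F)) (anti_of_mem_WW hj h)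
    simp only [Units.val_mul, Units.val_neg, eI_coe] at ha
    obtain ⟨s, hs⟩ := sq_scalar_of_anti (X := (d : Matrix (Fin 2) (Fin 2) F)) ha
    refine hc2 s ?_
    rw [← Units.val_mul, show c * c = y⁻¹ * (d * d) * y by rw [hd]; group, Units.val_mul, Units.val_mul,
      Units.val_mul, hs, mul_smul_comm, smul_mul_assoc, mul_one, ← Units.val_mul, inv_mul_cancel,
      Units.val_one]
  obtain ⟨a, b, hab⟩ := exists_el_of_mem hcU
  obtain ⟨a', b', hab'⟩ := exists_el_of_mem hdU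
  have hb : b ≠ 0 := fun h => hc2 (a * a) (by
    rw [hab, h, el_scalar, smul_mul_assoc, one_mul, smul_smul])
  have split : ∀ p q : F, el p q = p • 1 + q • el 0 1 := fun p q => by
    ext i k; fin_cases i <;> fin_cases k <;> simp [el]
  have h1 : (y : Matrix (Fin 2) (Fin 2) F) * el a b = el a' b' * y := by
    rw [← hab, ← hab', ← Units.val_mul, ← Units.val_mul, hd, inv_mul_cancel_right]
  -- the image of `i`
  set z := y * eI * y⁻¹ with hz
  have hzel : (z : Matrix (Fin 2) (Fin 2) F) = el ((a' - a) / b) (b' / b) := by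
    have h2' : b • ((y : Matrix (Fin 2) (Fin 2) F) * el 0 1) = el (a' - a) b' * (y : Matrix (Fin 2) (Fin 2) F) := by
      rw [split a b, mul_add, mul_smul_comm, mul_smul_comm, mul_one, split a' b', add_mul,
        smul_mul_assoc, one_mul] at h1
      rw [split (a' - a) b', add_mul, smul_mul_assoc, one_mul, sub_smul, sub_add_eq_add_sub, ← h1,
        add_sub_cancel_left]
    have h3 : el ((a' - a) / b) (b' / b) = b⁻¹ • el (a' - a) b' := by
      ext i k; fin_cases i <;> fin_cases k <;> simp [el, div_eq_inv_mul, mul_comm]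
    rw [h3, hz, Units.val_mul, Units.val_mul, eI_coe]
    rw [eq_inv_smul_iff₀ hb, ← smul_mul_assoc, h2', mul_assoc, Units.mul_inv, mul_one]
  set e := (a' - a) / b
  set f := b' / b
  have hzz : z * z = -1 := by
    rw [hz, show y * eI * y⁻¹ * (y * eI * y⁻¹) = y * (eI * eI) * y⁻¹ by group, eI_sq]; simp
  have hzz' := congrArg (fun x : GL (Fin 2) F => (x : Matrix (Fin 2) (Fin 2) F)) hzz
  simp only [Units.val_mul, Units.val_neg, Units.val_one, hzel, el_mul] at hzz'
  rw [show (-1 : Matrix (Fin 2) (Fin 2) F) = el (-1) 0 by rw [el_scalar]; simp] at hzz'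
  obtain ⟨h00, h10⟩ := el_inj hzz'
  have hef : (2 : F) * (e * f) = 0 := by linear_combination h10
  have hy' : y * eI = z * y := by rw [hz, inv_mul_cancel_right]
  rcases mul_eq_zero.1 ((mul_eq_zero.1 hef).resolve_left h2) with he | hf
  · rcases mul_self_eq_one_iff.1 (show f * f = 1 by rw [he] at h00; linear_combination -h00) with h | h
    · left
      rw [hy', show z = eI from Units.ext (by rw [hzel, he, h, eI_coe])]
    · right
      rw [hy', show z = -(eI : GL (Fin 2) F) from Units.ext (by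
        rw [hzel, he, h, Units.val_neg, eI_coe]
        ext i k; fin_cases i <;> fin_cases k <;> simp [el]), neg_mul]
  · exfalso
    have hcomm : z = eI := by
      have h4 : eI = y⁻¹ * z * y := by rw [hz]; group
      have hzs : z * y = y * z := Units.ext (by
        show (z : Matrix (Fin 2) (Fin 2) F) * (y : Matrix (Fin 2) (Fin 2) F) =
          (y : Matrix (Fin 2) (Fin 2) F) * (z : Matrix (Fin 2) (Fin 2) F)
        rw [hzel, hf, el_scalar, smul_mul_assoc, mul_smul_comm, one_mul, mul_one])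
      rw [h4, mul_assoc, hzs, inv_mul_cancel_left]
    have := congrArg (fun x : GL (Fin 2) F => (x : Matrix (Fin 2) (Fin 2) F)) hcomm
    simp only [hzel, eI_coe] at this
    exact one_ne_zero ((el_inj this).2.symm.trans hf)

theorem base_odd [Finite F] (h2 : (2 : F) ≠ 0) {R : Subgroup (GL (Fin 2) F)} (hR : R ≤ WW hj)
    (hjR : j ∈ R) {c : GL (Fin 2) F} (hc : c ∈ R) (hcU : c ∈ UU F)
    (hc2 : ∀ s : F, (c : Matrix (Fin 2) (Fin 2) F) * c ≠ s • 1)
    {y : GL (Fin 2) F} (hodd : Odd (orderOf y)) (hy : y ∈ Subgroup.normalizer (R : Set (GL (Fin 2) F))) :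
    ∃ s : F, (y : Matrix (Fin 2) (Fin 2) F) = s • 1 := by
  have hU : y ∈ UU F := by
    refine mem_UU.2 ((conj_I hj h2 hR hc hcU hc2 hy).resolve_right fun h => ?_)
    have hk : ∀ k : ℕ, y ^ (2 * k + 1) * eI = -(eI * y ^ (2 * k + 1)) := by
      intro k
      induction k with
      | zero => simpa using h
      | succ k ih =>
        have h2y : y * y * eI = eI * (y * y) := by
          rw [mul_assoc, h, mul_neg, ← mul_assoc, h, neg_mul, neg_neg, mul_assoc]
        rw [show 2 * (k + 1) + 1 = 2 + (2 * k + 1) by ring, pow_add, pow_two, mul_assoc, ih, mul_neg,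
          ← mul_assoc, h2y, mul_assoc]
    obtain ⟨m, hm⟩ := hodd
    have := hk m
    rw [← hm, pow_orderOf_eq_one, one_mul, mul_one] at this
    exact neg_ne_self h2 _ this
  set w := y * j * y⁻¹ * j⁻¹ with hw
  have hwR : w ∈ R := mul_mem (conj_mem_of_normalizer hy hjR) (inv_mem hjR)
  have hyj : j * y⁻¹ * j⁻¹ ∈ UU F := j_conj_UU hj (inv_mem hU)
  have e : w = y * (j * y⁻¹ * j⁻¹) := by rw [hw]; group
  obtain ⟨k, hk⟩ := (mem_CC_of_WW hj h2 (hR hwR) (mem_UU.1 (e ▸ mul_mem hU hyj))).2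
  have hw1 : w = 1 := eq_one_of_odd_two hodd hk (by
    rw [e, (show Commute y (j * y⁻¹ * j⁻¹) from UU_comm hU hyj).mul_pow, pow_orderOf_eq_one, conj_pow,
      inv_pow, pow_orderOf_eq_one, inv_one, mul_one, mul_inv_cancel, one_mul])
  rw [hw, mul_inv_eq_one, mul_inv_eq_iff_eq_mul] at hw1
  exact scalar_of_UU_anti h2 hj (congrArg (fun z : GL (Fin 2) F => (z : Matrix (Fin 2) (Fin 2) F)) (mem_UU.1 hU))
    (congrArg (fun z : GL (Fin 2) F => (z : Matrix (Fin 2) (Fin 2) F)) hw1)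

theorem base_max [Finite F] (h2 : (2 : F) ≠ 0) {R : Subgroup (GL (Fin 2) F)} (hR : R ≤ WW hj)
    (hjR : j ∈ R) {c : GL (Fin 2) F} (hc : c ∈ R) (hcU : c ∈ UU F)
    (hc2 : ∀ s : F, (c : Matrix (Fin 2) (Fin 2) F) * c ≠ s • 1)
    {y : GL (Fin 2) F} (hy2 : ∃ k : ℕ, y ^ 2 ^ k = 1)
    (hy : y ∈ Subgroup.normalizer (R : Set (GL (Fin 2) F))) : y ∈ WW hj := by
  rcases conj_I hj h2 hR hc hcU hc2 hy with h | h
  · exact Or.inl ⟨mem_UU.2 h, hy2⟩
  · refine Or.inr ⟨mem_UU.2 ?_, pow_two_mem (sup_zpowers_two ((WW_two hj).to_le hR) hy2 hy)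
      (mul_mem (Subgroup.mem_sup_right (Subgroup.mem_zpowers y)) (Subgroup.mem_sup_left hjR))⟩
    rw [mul_assoc, hj.anti, mul_neg, ← mul_assoc, h, neg_mul, neg_neg, mul_assoc]

theorem good_WW [Finite F] (h2 : (2 : F) ≠ 0) {c : GL (Fin 2) F} (hc : c ∈ CC F)
    (hc2 : ∀ s : F, (c : Matrix (Fin 2) (Fin 2) F) * c ≠ s • 1) : Good (WW hj) where
  two := WW_two hj
  neg := Or.inl neg_one_mem_CC
  even := by simp
  nontriv := inferInstance
  commutant X hX := scalar_of_UU_anti h2 hj (hX _ ⟨Or.inl eI_mem_CC, mem_sl.2 eI_det⟩)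
    (hX _ ⟨j_mem hj, mem_sl.2 hj.det⟩)
  odd _ h hy := base_odd hj h2 le_rfl (j_mem hj) (Or.inl hc) hc.1 hc2 h hy
  maximal _ h hy := base_max hj h2 le_rfl (j_mem hj) (Or.inl hc) hc.1 hc2 h hy

theorem goodSL_WW [Finite F] (h2 : (2 : F) ≠ 0) {c : GL (Fin 2) F} (hc : c ∈ CC F)
    (hcd : (c : Matrix (Fin 2) (Fin 2) F).det = 1)
    (hc2 : ∀ s : F, (c : Matrix (Fin 2) (Fin 2) F) * c ≠ s • 1) : GoodSL (WW hj) where
  two := WW_two hj
  odd _ h hy := base_odd hj h2 inf_le_left ⟨j_mem hj, mem_sl.2 hj.det⟩ ⟨Or.inl hc, mem_sl.2 hcd⟩ hc.1 hc2 h hy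
  maximal _ h hy := base_max hj h2 inf_le_left ⟨j_mem hj, mem_sl.2 hj.det⟩ ⟨Or.inl hc, mem_sl.2 hcd⟩ hc.1 hc2 h hy

end CfsgLib.PronPSL
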