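import Cfsg.Agent.PronPSL.Klein
import Cfsg.Agent.PronPSL.Two

/-!
`PSL₂(q)`, `q ≡ ±3` modulo eight: subgroups of odd index are pronormal.
-/

set_option autoImplicit false

namespace CfsgLib.PronPSL

open Matrix
open scoped commutatorElement

variable {F : Type*} [Field F] [Fintype F]

local notation "SL2" => SpecialLinearGroup (Fin 2) F
local notation "PSL2" => ProjectiveSpecialLinearGroup (Fin 2) F
local notation "π" => QuotientGroup.mk' (Subgroup.center (SpecialLinearGroup (Fin 2) F))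

/-- Commuting elements: an element of odd order cannot centralise two different involutions that
commute. -/
theorem eq_one_of_two_involutions (h2 : (2 : F) ≠ 0) {x u v : ProjectiveSpecialLinearGroup (Fin 2) F}
    (hodd : Odd (orderOf x)) (hu : u ≠ 1) (hu2 : u * u = 1) (hv : v ≠ 1) (hv2 : v * v = 1) (huv : u ≠ v)
    (huv' : Commute u v) (hxu : Commute x u) (hxv : Commute x v) : x = 1 := by
  obtain ⟨X, rfl⟩ := QuotientGroup.mk'_surjective _ x
  obtain ⟨U, rfl⟩ := QuotientGroup.mk'_surjective _ u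
  obtain ⟨W, rfl⟩ := QuotientGroup.mk'_surjective _ v
  obtain ⟨hUs, hUU⟩ := lift_involution h2 hu hu2
  obtain ⟨hWs, hWW⟩ := lift_involution h2 hv hv2
  by_contra hx
  have hXs : ∀ c : F, (X : Matrix (Fin 2) (Fin 2) F) ≠ c • 1 := fun c hc => hx (by
    refine (QuotientGroup.eq_one_iff X).2 (Subgroup.mem_center_iff.2 fun g => Subtype.ext ?_)
    show g.1 * X.1 = X.1 * g.1
    rw [hc, mul_smul_comm, smul_mul_assoc, mul_one, one_mul])
  have hUW := comm_of_comm hXs (lift_comm h2 hodd hxu).symm (lift_comm h2 hodd hxv).symm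
  rcases eq_or_neg h2 hUs hUU hWW hWs hUW.symm with h | h
  · exact huv (congrArg π (Subtype.ext h.symm : U = W))
  · apply huv
    have hm : (-1 : SL2) ∈ Subgroup.center SL2 := Subgroup.mem_center_iff.2 fun g => by
      refine Subtype.ext ?_
      show g.1 * (-1 : SL2).1 = (-1 : SL2).1 * g.1
      simp
    rw [show W = U * -1 from Subtype.ext (by
      show W.1 = U.1 * (-1 : SL2).1
      simp [h]), map_mul, (QuotientGroup.eq_one_iff (-1 : SL2)).2 hm |> fun e => (show π (-1) = 1 from e), mul_one]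

/-- An abelian subgroup of odd order normalised by a four-group commutes with one of its involutions,
and so does everything normalising it. -/
theorem exists_central (h2 : (2 : F) ≠ 0) {K A V : Subgroup (ProjectiveSpecialLinearGroup (Fin 2) F)}
    {u w : ProjectiveSpecialLinearGroup (Fin 2) F} (hu : u ∈ V) (hw : w ∈ V)
    (hu1 : u ≠ 1) (hw1 : w ≠ 1) (huw : u ≠ w) (hu2 : u * u = 1) (hw2 : w * w = 1) (hc : Commute u w)
    (hAne : A ≠ ⊥) (hAodd : ∀ a ∈ A, Odd (orderOf a)) (hAcomm : ∀ a ∈ A, ∀ b ∈ A, Commute a b)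
    (hVA : ∀ v ∈ V, ∀ a ∈ A, v * a * v⁻¹ ∈ A) (hKA : ∀ x ∈ K, ∀ a ∈ A, x * a * x⁻¹ ∈ A) :
    ∃ z ∈ V, z ≠ 1 ∧ z * z = 1 ∧ ∀ x ∈ K, Commute x z := by
  classical
  have huinv : u⁻¹ = u := inv_eq_of_mul_eq_one_right hu2
  have hwinv : w⁻¹ = w := inv_eq_of_mul_eq_one_right hw2
  set z₃ := u * w with hz₃
  have h31 : z₃ ≠ 1 := fun h => huw (by rw [← huinv]; exact inv_eq_of_mul_eq_one_right h)
  have h32 : z₃ * z₃ = 1 := by
    rw [hz₃, show u * w * (u * w) = u * (w * u) * w by group, ← hc.eq,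
      show u * (u * w) * w = u * u * (w * w) by group, hu2, hw2, mul_one]
  -- some involution centralises a non-trivial element of `A`
  obtain ⟨z, hzV, hz1, hz2, a, ha, ha1, hza⟩ :
      ∃ z ∈ V, z ≠ 1 ∧ z * z = 1 ∧ ∃ a ∈ A, a ≠ 1 ∧ Commute a z := by
    by_contra hno
    push Not at hno
    obtain ⟨⟨a, ha⟩, ha1⟩ := Subgroup.ne_bot_iff_exists_ne_one.1 hAne
    have ha1' : a ≠ 1 := fun e => ha1 (Subtype.ext e)
    have inv : ∀ z ∈ V, z ≠ 1 → z * z = 1 → ∀ b ∈ A, z * b * z⁻¹ = b⁻¹ := by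
      intro z hz h1 h2z b hb
      have hb' := hVA z hz b hb
      have hzinv : z⁻¹ = z := inv_eq_of_mul_eq_one_right h2z
      by_contra hne
      refine hno z hz h1 h2z (b * (z * b * z⁻¹)) (mul_mem hb hb')
        (fun e => hne (inv_eq_of_mul_eq_one_right e).symm) ?_
      show b * (z * b * z⁻¹) * z = z * (b * (z * b * z⁻¹))
      rw [show z * (b * (z * b * z⁻¹)) = (z * b * z⁻¹) * (z * z) * b * z⁻¹ by group, h2z, mul_one,
        ← (hAcomm b hb _ hb').eq, show b * (z * b * z⁻¹) * z⁻¹ = b * (z * b) * (z * z)⁻¹ by group, h2z,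
        inv_one, mul_one]
      group
    have hu' := inv u hu hu1 hu2 a ha
    have hw' := inv w hw hw1 hw2 _ (inv_mem ha)
    refine hno z₃ (mul_mem hu hw) h31 h32 a ha ha1' ?_
    have : z₃ * a * z₃⁻¹ = a := by
      have hw'' := inv w hw hw1 hw2 a ha
      have hu'' := inv u hu hu1 hu2 _ (inv_mem ha)
      rw [hz₃, show u * w * a * (u * w)⁻¹ = u * (w * a * w⁻¹) * u⁻¹ by group, hw'', hu'', inv_inv]
    exact (mul_inv_eq_iff_eq_mul.1 this).symm
  -- `A` centralises it
  have hAz : ∀ b ∈ A, Commute b z := by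
    intro b hb
    obtain ⟨X, rfl⟩ := QuotientGroup.mk'_surjective _ a
    obtain ⟨Y, rfl⟩ := QuotientGroup.mk'_surjective _ b
    obtain ⟨Z, rfl⟩ := QuotientGroup.mk'_surjective _ z
    have hXs : ∀ c : F, (X : Matrix (Fin 2) (Fin 2) F) ≠ c • 1 := fun c hc => ha1 (by
      refine (QuotientGroup.eq_one_iff X).2 (Subgroup.mem_center_iff.2 fun g => Subtype.ext ?_)
      show g.1 * X.1 = X.1 * g.1
      rw [hc, mul_smul_comm, smul_mul_assoc, mul_one, one_mul])
    have hYZ := comm_of_comm hXs (lift_comm h2 (hAodd _ ha) (hAcomm _ ha _ hb)).symm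
      (lift_comm h2 (hAodd _ ha) hza).symm
    show π Y * π Z = π Z * π Y
    rw [← map_mul, ← map_mul]
    exact congrArg π (Subtype.ext hYZ : Y * Z = Z * Y)
  refine ⟨z, hzV, hz1, hz2, fun x hx => ?_⟩
  obtain ⟨a', ha', hax⟩ : ∃ a' ∈ A, a' = x * a * x⁻¹ := ⟨_, hKA x hx a ha, rfl⟩
  set z' := x * z * x⁻¹ with hz'
  have hz'2 : z' * z' = 1 := by
    rw [hz', show x * z * x⁻¹ * (x * z * x⁻¹) = x * (z * z) * x⁻¹ by group, hz2, mul_one, mul_inv_cancel]
  have hz'1 : z' ≠ 1 := fun e => hz1 ((conj_eq_one_iff (a := x)).1 e)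
  have ha'1 : a' ≠ 1 := fun e => ha1 ((conj_eq_one_iff (a := x)).1 (hax ▸ e))
  have h1 : Commute a' z' := by
    show a' * z' = z' * a'
    rw [hax, hz', show x * a * x⁻¹ * (x * z * x⁻¹) = x * (a * z) * x⁻¹ by group, hza.eq]
    group
  have h3 := hAz a' ha'
  by_contra hne
  have hne' : z' ≠ z := fun e => hne (mul_inv_eq_iff_eq_mul.1 e)
  -- the two involutions commute, both centralising the same non-scalar element
  have hzz : Commute z' z := by
    obtain ⟨X, rfl⟩ := QuotientGroup.mk'_surjective _ a'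
    obtain ⟨Z', hZ'⟩ := QuotientGroup.mk'_surjective (Subgroup.center SL2) z'
    obtain ⟨Z, hZ⟩ := QuotientGroup.mk'_surjective (Subgroup.center SL2) z
    rw [← hZ] at h3 ⊢
    rw [← hZ'] at h1 ⊢
    have hXs : ∀ c : F, (X : Matrix (Fin 2) (Fin 2) F) ≠ c • 1 := fun c hc => ha'1 (by
      refine (QuotientGroup.eq_one_iff X).2 (Subgroup.mem_center_iff.2 fun g => Subtype.ext ?_)
      show g.1 * X.1 = X.1 * g.1
      rw [hc, mul_smul_comm, smul_mul_assoc, mul_one, one_mul])
    have hYZ := comm_of_comm hXs (lift_comm h2 (hAodd _ ha') h1).symm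
      (lift_comm h2 (hAodd _ ha') h3).symm
    show π Z' * π Z = π Z * π Z'
    rw [← map_mul, ← map_mul]
    exact congrArg π (Subtype.ext hYZ : Z' * Z = Z * Z')
  exact ha'1 (eq_one_of_two_involutions h2 (hAodd _ ha') hz'1 hz'2 hz1 hz2 hne' hzz h1 h3)

/-- The internal derived series. -/
def dser {G : Type*} [Group G] (K : Subgroup G) : ℕ → Subgroup G
  | 0 => K
  | n + 1 => ⁅dser K n, dser K n⁆

theorem dser_eq {G : Type*} [Group G] (K : Subgroup G) :
    ∀ n, dser K n = (derivedSeries K n).map K.subtype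
  | 0 => by simp [dser, derivedSeries_zero, ← MonoidHom.range_eq_map]
  | n + 1 => by rw [dser, dser_eq K n, derivedSeries_succ, Subgroup.map_commutator]

theorem dser_conj {G : Type*} [Group G] {K : Subgroup G} {g : G}
    (h : K.map (MulAut.conj g).toMonoidHom = K) :
    ∀ n, (dser K n).map (MulAut.conj g).toMonoidHom = dser K n
  | 0 => h
  | n + 1 => by rw [dser, Subgroup.map_commutator, dser_conj h n]

theorem klein_witness (h2 : (2 : F) ≠ 0) (P : Sylow 2 (ProjectiveSpecialLinearGroup (Fin 2) F))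
    {u w : ProjectiveSpecialLinearGroup (Fin 2) F}
    (hP : ∀ x, x ∈ (P : Subgroup PSL2) ↔ x = 1 ∨ x = u ∨ x = w ∨ x = u * w)
    (hu1 : u ≠ 1) (hw1 : w ≠ 1) (huw : u ≠ w) (hu2 : u * u = 1) (hw2 : w * w = 1) (hc : Commute u w)
    (H : Subgroup (ProjectiveSpecialLinearGroup (Fin 2) F)) (hPH : (P : Subgroup PSL2) ≤ H)
    (g : ProjectiveSpecialLinearGroup (Fin 2) F)
    (hg : g ∈ Subgroup.normalizer ((P : Subgroup PSL2) : Set PSL2)) :
    ∃ x ∈ H ⊔ H.map (MulAut.conj g).toMonoidHom,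
      H.map (MulAut.conj g).toMonoidHom = H.map (MulAut.conj x).toMonoidHom := by
  classical
  haveI := Fact.mk Nat.prime_two
  set V := (P : Subgroup PSL2) with hV
  by_cases hgH : g ∈ H
  · exact pronormal_witness_of_normalizer (conj_eq_of_mem (Subgroup.le_normalizer hgH))
  have hgV : g ∉ V := fun h => hgH (hPH h)
  set J := H ⊔ H.map (MulAut.conj g).toMonoidHom with hJ
  have huV : u ∈ V := (hP u).2 (Or.inr (Or.inl rfl))
  have hwV : w ∈ V := (hP w).2 (Or.inr (Or.inr (Or.inl rfl)))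
  have hVc : ∀ x ∈ V, ∀ y ∈ V, Commute x y := by
    have hgen : ∀ x ∈ V, Commute x u ∧ Commute x w := fun x hx => by
      rcases (hP x).1 hx with rfl | rfl | rfl | rfl
      · exact ⟨Commute.one_left u, Commute.one_left w⟩
      · exact ⟨Commute.refl _, hc⟩
      · exact ⟨hc.symm, Commute.refl _⟩
      · exact ⟨(Commute.refl u).mul_left hc.symm, hc.mul_left (Commute.refl w)⟩
    intro x hx y hy
    obtain ⟨a, b⟩ := hgen x hx
    rcases (hP y).1 hy with rfl | rfl | rfl | rfl
    · exact Commute.one_right x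
    · exact a
    · exact b
    · exact a.mul_right b
  have hV2 : ∀ x ∈ V, x * x = 1 := fun x hx => by
    rcases (hP x).1 hx with rfl | rfl | rfl | rfl
    · exact mul_one 1
    · exact hu2
    · exact hw2
    · rw [mul_assoc, ← mul_assoc w, ← hc.eq, mul_assoc u w w, hw2, mul_one, hu2]
  -- elements of the normaliser outside `V` fix no involution
  have two_mem : ∀ y ∈ Subgroup.normalizer (V : Set PSL2), (∃ k : ℕ, y ^ 2 ^ k = 1) → y ∈ V := by
    intro y hy hk
    have hS : IsPGroup 2 (V ⊔ Subgroup.zpowers y : Subgroup PSL2) := by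
      obtain ⟨k, hk⟩ := hk
      refine IsPGroup.to_sup_of_normal_left' P.isPGroup' ?_ (Subgroup.zpowers_le.2 hy)
      rintro ⟨_, l, rfl⟩
      refine ⟨k, Subtype.ext ?_⟩
      show (y ^ l) ^ 2 ^ k = 1
      rw [← zpow_natCast, ← _root_.zpow_mul, mul_comm, _root_.zpow_mul, zpow_natCast, hk, _root_.one_zpow]
    exact (P.is_maximal' hS le_sup_left).le (Subgroup.mem_sup_right (Subgroup.mem_zpowers y))
  have fix_mem : ∀ y ∈ Subgroup.normalizer (V : Set PSL2), ∀ z ∈ V, z ≠ 1 →
      y * z * y⁻¹ = z → y ∈ V := by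
    intro y hy z hz hz1 hyz
    -- its square centralises `V`
    have hsq : ∀ v ∈ V, y ^ 2 * v * (y ^ 2)⁻¹ = v := by
      intro v hv
      have h1 := conj_mem_of_normalizer hy hv
      have key : ∀ a ∈ V, a ≠ 1 → a ≠ z → ∀ b ∈ V, b ≠ 1 → b ≠ z → b = a ∨ b = z * a := by
        intro a ha ha1 haz b hb hb1 hbz
        rcases (hP z).1 hz with rfl | rfl | rfl | rfl
        · exact absurd rfl hz1
        all_goals
          rcases (hP a).1 ha with rfl | rfl | rfl | rfl <;>
          rcases (hP b).1 hb with rfl | rfl | rfl | rfl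
        all_goals first
          | exact Or.inl rfl
          | exact absurd rfl ha1
          | exact absurd rfl haz
          | exact absurd rfl hb1
          | exact absurd rfl hbz
          | exact Or.inr rfl
          | exact Or.inr (by rw [← mul_assoc, hu2, one_mul])
          | exact Or.inr hc.eq
          | exact Or.inr (by rw [hc.eq, ← mul_assoc, hw2, one_mul])
          | exact Or.inr (by rw [mul_assoc, hw2, mul_one])
          | exact Or.inr (by rw [hc.eq, mul_assoc, hu2, mul_one])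
      by_cases hv1 : v = 1
      · simp [hv1]
      by_cases hvz : v = z
      · rw [hvz, pow_two, show y * y * z * (y * y)⁻¹ = y * (y * z * y⁻¹) * y⁻¹ by group, hyz, hyz]
      have e2 : ∀ r, y * r * y⁻¹ = r ∨ y * r * y⁻¹ = z * r → y ^ 2 * r * (y ^ 2)⁻¹ = r := by
        rintro r (e | e)
        · rw [pow_two, show y * y * r * (y * y)⁻¹ = y * (y * r * y⁻¹) * y⁻¹ by group, e, e]
        · rw [pow_two, show y * y * r * (y * y)⁻¹ = y * (y * r * y⁻¹) * y⁻¹ by group, e,
            show y * (z * r) * y⁻¹ = (y * z * y⁻¹) * (y * r * y⁻¹) by group, hyz, e, ← mul_assoc,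
            hV2 z hz, one_mul]
      refine e2 v (key v hv hv1 hvz _ h1 (fun e => hv1 ((conj_eq_one_iff (a := y)).1 e)) fun e => hvz ?_)
      rw [show v = y⁻¹ * (y * v * y⁻¹) * y by group, e]
      nth_rewrite 1 [← hyz]
      group
    obtain ⟨k, m, hm, hkm⟩ := Nat.exists_eq_pow_mul_and_not_dvd (orderOf_pos y).ne' 2 (by norm_num)
    have hmodd : Odd m := Nat.odd_iff.2 (by omega)
    have h1 : (y ^ 2) ^ 2 ^ k = 1 := by
      refine eq_one_of_two_involutions h2 (hmodd.of_dvd_nat (orderOf_dvd_of_pow_eq_one ?_)) hu1 hu2 hw1 hw2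
        huw hc ?_ ?_
      · rw [← pow_mul, ← hkm, ← pow_mul, mul_comm, pow_mul, pow_orderOf_eq_one, one_pow]
      · exact Commute.pow_left (mul_inv_eq_iff_eq_mul.1 (hsq u huV)) _
      · exact Commute.pow_left (mul_inv_eq_iff_eq_mul.1 (hsq w hwV)) _
    exact two_mem y hy ⟨k + 1, by rw [pow_succ', pow_mul, h1]⟩
  by_cases hN : ∃ t ∈ Subgroup.normalizer (V : Set PSL2), t ∈ J ∧ t ∉ V
  · obtain ⟨t, htN, htJ, htV⟩ := hN
    refine ⟨g, ?_, rfl⟩
    have hVJ : V ≤ J := hPH.trans le_sup_left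
    have t1 : t * u * t⁻¹ ∈ V := conj_mem_of_normalizer htN huV
    have n1 : t * u * t⁻¹ ≠ 1 := fun e => hu1 ((conj_eq_one_iff (a := t)).1 e)
    have n1u : t * u * t⁻¹ ≠ u := fun e => htV (fix_mem t htN u huV hu1 e)
    have t2 : (t * t) * u * (t * t)⁻¹ ∈ V := conj_mem_of_normalizer (mul_mem htN htN) huV
    have n2 : (t * t) * u * (t * t)⁻¹ ≠ 1 := fun e => hu1 ((conj_eq_one_iff (a := t * t)).1 e)
    have n2u : (t * t) * u * (t * t)⁻¹ ≠ u := fun e => by
      have := fix_mem (t * t) (mul_mem htN htN) u huV hu1 e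
      exact htV (two_mem t htN ⟨2, by
        rw [show (2 : ℕ) ^ 2 = 2 * 2 from rfl, pow_mul, pow_two t, pow_two]; exact hV2 _ this⟩)
    have n12 : (t * t) * u * (t * t)⁻¹ ≠ t * u * t⁻¹ := fun e => n1u (by
      have e' : t * (t * u * t⁻¹) * t⁻¹ = t * u * t⁻¹ :=
        (show t * (t * u * t⁻¹) * t⁻¹ = t * t * u * (t * t)⁻¹ by group).trans e
      exact (mul_left_cancel (mul_right_cancel e')))
    have gu := conj_mem_of_normalizer hg huV
    have ng : g * u * g⁻¹ ≠ 1 := fun e => hu1 ((conj_eq_one_iff (a := g)).1 e)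
    have ngu : g * u * g⁻¹ ≠ u := fun e => hgV (fix_mem g hg u huV hu1 e)
    have hsame : ∀ r ∈ Subgroup.normalizer (V : Set PSL2), r ∈ J → g * u * g⁻¹ = r * u * r⁻¹ → g ∈ J := by
      intro r hr hrJ e
      have := fix_mem (r⁻¹ * g) (mul_mem (inv_mem hr) hg) u huV hu1 (by
        rw [show r⁻¹ * g * u * (r⁻¹ * g)⁻¹ = r⁻¹ * (g * u * g⁻¹) * r by group, e]; group)
      rw [show g = r * (r⁻¹ * g) by group]
      exact mul_mem hrJ (hVJ this)
    -- three involutions only
    have only : ∀ a ∈ V, a ≠ 1 → a ≠ u → a = w ∨ a = u * w := fun a ha h h' => by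
      rcases (hP a).1 ha with rfl | rfl | rfl | rfl
      · exact absurd rfl h
      · exact absurd rfl h'
      · exact Or.inl rfl
      · exact Or.inr rfl
    rcases only _ gu ng ngu with e | e <;> rcases only _ t1 n1 n1u with e' | e'
    · exact hsame t htN htJ (e.trans e'.symm)
    · rcases only _ t2 n2 n2u with e'' | e''
      · exact hsame (t * t) (mul_mem htN htN) (mul_mem htJ htJ) (e.trans e''.symm)
      · exact absurd (e''.trans e'.symm) n12
    · rcases only _ t2 n2 n2u with e'' | e''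
      · exact absurd (e''.trans e'.symm) n12
      · exact hsame (t * t) (mul_mem htN htN) (mul_mem htJ htJ) (e.trans e''.symm)
    · exact hsame t htN htJ (e.trans e'.symm)
  · push Not at hN
    -- a normal complement
    have hVJ : V ≤ J := hPH.trans le_sup_left
    let Q : Sylow 2 J := P.subtype hVJ
    have hQmem : ∀ x : J, x ∈ (Q : Subgroup J) ↔ (x : PSL2) ∈ V := fun x => by
      show x ∈ V.subgroupOf J ↔ _
      rw [Subgroup.mem_subgroupOf]
    have hQN : Subgroup.normalizer ((Q : Subgroup J) : Set J) ≤ Subgroup.centralizer ((Q : Subgroup J) : Set J) := by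
      intro x hx
      have hxN : (x : PSL2) ∈ Subgroup.normalizer (V : Set PSL2) := by
        refine Subgroup.mem_normalizer_iff.2 fun y => ⟨fun hy => ?_, fun hy => ?_⟩
        · exact (hQmem _).1 ((Subgroup.mem_normalizer_iff.1 hx ⟨y, hVJ hy⟩).1 ((hQmem _).2 hy))
        · have hy' : y ∈ J := by
            have := mul_mem (mul_mem (inv_mem x.2) (hVJ hy)) x.2
            simpa [mul_assoc] using this
          exact (hQmem ⟨y, hy'⟩).1 ((Subgroup.mem_normalizer_iff.1 hx ⟨y, hy'⟩).2 ((hQmem _).2 hy))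
      refine Subgroup.mem_centralizer_iff.2 fun y hy => Subtype.ext ?_
      exact (hVc _ ((hQmem y).1 hy) _ (hN _ hxN x.2)).eq
    set K := (MonoidHom.transferSylow Q hQN).ker with hK
    have hcompl := MonoidHom.ker_transferSylow_isComplement' Q hQN
    have hKodd : Odd (Nat.card K) := by
      rw [← Nat.not_even_iff_odd, even_iff_two_dvd]
      exact MonoidHom.not_dvd_card_ker_transferSylow Q hQN
    set K₀ := K.map J.subtype with hK₀
    have hK₀odd : Odd (Nat.card K₀) := by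
      rwa [hK₀, Subgroup.card_map_of_injective J.subtype_injective]
    have hel : ∀ x ∈ K₀, Odd (orderOf x) := fun x hx => hK₀odd.of_dvd_nat (Subgroup.orderOf_dvd_natCard K₀ hx)
    -- odd elements of `J` lie in the complement
    have hoddmem : ∀ x ∈ J, Odd (orderOf x) → x ∈ K₀ := by
      intro x hx ho
      refine ⟨⟨x, hx⟩, ?_, rfl⟩
      obtain ⟨k, hk⟩ := Q.isPGroup' (MonoidHom.transferSylow Q hQN ⟨x, hx⟩)
      exact eq_one_of_odd_two ho hk (by
        rw [← map_pow, show (⟨x, hx⟩ : J) ^ orderOf x = 1 from Subtype.ext (pow_orderOf_eq_one x), map_one])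
    have hKnorm : ∀ x ∈ J, K₀.map (MulAut.conj x).toMonoidHom = K₀ := by
      intro x hx
      refine Subgroup.eq_of_le_of_card_ge ?_
        (by rw [Subgroup.card_map_of_injective (show Function.Injective (MulAut.conj x).toMonoidHom from
          (MulAut.conj x).injective)])
      rintro _ ⟨y, ⟨y', hy', rfl⟩, rfl⟩
      refine ⟨(⟨x, hx⟩ : J) * y' * (⟨x, hx⟩ : J)⁻¹,
        (MonoidHom.normal_ker (MonoidHom.transferSylow Q hQN)).conj_mem y' hy' ⟨x, hx⟩, ?_⟩
      simp
    -- decomposition of `H`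
    have hdec : ∀ h ∈ H, ∃ k ∈ K₀ ⊓ H, ∃ v ∈ V, h = k * v := by
      intro h hh
      obtain ⟨⟨⟨k, hk⟩, ⟨v, hv⟩⟩, e, -⟩ := hcompl.existsUnique ⟨h, Subgroup.mem_sup_left hh⟩
      have e' : h = (k : PSL2) * v := (congrArg Subtype.val e).symm
      refine ⟨k, ⟨⟨k, hk, rfl⟩, ?_⟩, v, (hQmem v).1 hv, e'⟩
      rw [show (k : PSL2) = h * (v : PSL2)⁻¹ by rw [e', mul_inv_cancel_right]]
      exact H.mul_mem hh (H.inv_mem (hPH ((hQmem v).1 hv)))
    have hgK : ∀ k ∈ K₀ ⊓ H, g * k * g⁻¹ ∈ K₀ := fun k hk =>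
      hoddmem _ (Subgroup.mem_sup_right ⟨k, hk.2, rfl⟩) (by
        rw [show g * k * g⁻¹ = (MulAut.conj g) k from rfl, MulEquiv.orderOf_eq]
        exact hel k hk.1)
    by_cases hbot : K₀ ⊓ H = ⊥
    · have hHV : H = V := le_antisymm (fun h hh => by
        obtain ⟨k, hk, v, hv, rfl⟩ := hdec h hh
        rw [hbot, Subgroup.mem_bot] at hk
        rwa [hk, one_mul]) hPH
      refine pronormal_witness_of_normalizer ?_
      rw [hHV]
      exact conj_eq_of_mem hg
    exfalso
    obtain ⟨⟨k, hk⟩, hk1⟩ := Subgroup.ne_bot_iff_exists_ne_one.1 hbot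
    have hk1' : k ≠ 1 := fun e => hk1 (Subtype.ext e)
    -- the bottom of the derived series
    have hsol : Group.IsSolvable K₀ := odd_subgroup_solvable h2 K₀ hK₀odd
    obtain ⟨n, hn⟩ := hsol.solvable
    have hn' : dser K₀ n = ⊥ := by rw [dser_eq, hn, Subgroup.map_bot]
    obtain ⟨d, hd, hd1⟩ : ∃ d, dser K₀ d ≠ ⊥ ∧ dser K₀ (d + 1) = ⊥ := by
      by_contra hno
      push Not at hno
      have : ∀ d, dser K₀ d ≠ ⊥ := fun d => by
        induction d with
        | zero =>
          exact fun e => hk1' (by simpa [dser] using (Subgroup.mem_bot.1 (e ▸ (show k ∈ dser K₀ 0 from hk.1))))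
        | succ d ih => exact hno d ih
      exact this n hn'
    have hdle : dser K₀ d ≤ K₀ := by rw [dser_eq]; exact Subgroup.map_subtype_le _
    have hcommA : ∀ a ∈ dser K₀ d, ∀ b ∈ dser K₀ d, Commute a b := fun a ha b hb => by
      have h1 := Subgroup.commutator_mem_commutator ha hb
      have h2' : ⁅a, b⁆ ∈ dser K₀ (d + 1) := h1
      rw [hd1, Subgroup.mem_bot] at h2'
      exact commutatorElement_eq_one_iff_mul_comm.1 h2'
    have hnorm : ∀ x ∈ J, ∀ a ∈ dser K₀ d, x * a * x⁻¹ ∈ dser K₀ d := fun x hx a ha => by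
      have := dser_conj (hKnorm x hx) d
      rw [← this]; exact ⟨a, ha, rfl⟩
    obtain ⟨z, hzV, hz1, hz2, hzK⟩ := exists_central h2 (K := K₀) huV hwV hu1 hw1 huw hu2 hw2 hc hd
      (fun a ha => hel a (hdle ha)) hcommA (fun v hv => hnorm v (hVJ hv))
      (fun x hx => hnorm x (by obtain ⟨y, -, rfl⟩ := hx; exact y.2))
    have hgz : g * z * g⁻¹ ≠ z := fun e => hgV (fix_mem g hg z hzV hz1 e)
    have hzV' := conj_mem_of_normalizer hg hzV
    have hg1 : g * z * g⁻¹ ≠ 1 := fun e => hz1 ((conj_eq_one_iff (a := g)).1 e)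
    have h1 := hzK _ (hgK k hk)
    have h3 : Commute (g * k * g⁻¹) (g * z * g⁻¹) := by
      show g * k * g⁻¹ * (g * z * g⁻¹) = g * z * g⁻¹ * (g * k * g⁻¹)
      rw [show g * k * g⁻¹ * (g * z * g⁻¹) = g * (k * z) * g⁻¹ by group, (hzK k hk.1).eq]
      group
    exact hk1' ((conj_eq_one_iff (a := g)).1 (eq_one_of_two_involutions h2 (hel _ (hgK k hk)) hg1
      (hV2 _ hzV') hz1 hz2 hgz (hVc _ hzV' _ hzV) h3 h1))

end CfsgLib.PronPSL
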