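import Mathlib
import Cfsg.Prelude.Def_HallClasses

/-!
Pronormality: reductions.
-/

set_option autoImplicit false

namespace CfsgLib.PronPSL

variable {G : Type*} [Group G]

theorem map_conj_map (H : Subgroup G) (a b : G) :
    (H.map (MulAut.conj b).toMonoidHom).map (MulAut.conj a).toMonoidHom =
      H.map (MulAut.conj (a * b)).toMonoidHom := by
  rw [Subgroup.map_map]
  congr 1
  ext; simp [mul_assoc]

theorem conj_eq_of_mem {H : Subgroup G} {g : G} (hg : g ∈ Subgroup.normalizer (H : Set G)) :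
    H.map (MulAut.conj g).toMonoidHom = H :=
  Subgroup.mem_normalizer_iff_map_conj_eq.1 hg

/-- It is enough to treat the elements normalising a Sylow subgroup inside. -/
theorem isPronormal_of_sylow [Finite G] {p : ℕ} [Fact p.Prime] {H : Subgroup G} (S : Sylow p G)
    (hSH : (S : Subgroup G) ≤ H)
    (h : ∀ g ∈ Subgroup.normalizer ((S : Subgroup G) : Set G),
      ∃ w ∈ H ⊔ H.map (MulAut.conj g).toMonoidHom,
        H.map (MulAut.conj g).toMonoidHom = H.map (MulAut.conj w).toMonoidHom) :
    Cfsg.IsPronormal H := by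
  intro g
  set J := H ⊔ H.map (MulAut.conj g).toMonoidHom with hJ
  have h1 : (S : Subgroup G) ≤ J := hSH.trans le_sup_left
  have h2 : ((g • S : Sylow p G) : Subgroup G) ≤ J := by
    rw [Sylow.coe_subgroup_smul]
    rintro _ ⟨y, hy, rfl⟩
    exact Subgroup.mem_sup_right ⟨y, hSH hy, rfl⟩
  obtain ⟨⟨j, hj⟩, hjT⟩ := MulAction.exists_smul_eq J (S.subtype h1) ((g • S).subtype h2)
  have hjeq : j • S = g • S := by
    rw [Sylow.smul_subtype h1] at hjT
    exact Sylow.subtype_injective hjT
  have hm : j⁻¹ * g ∈ Subgroup.normalizer ((S : Subgroup G) : Set G) := by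
    refine Sylow.smul_eq_iff_mem_normalizer.1 ?_
    rw [mul_smul, ← hjeq, inv_smul_smul]
  obtain ⟨w, hw, hwe⟩ := h _ hm
  have hle : H ⊔ H.map (MulAut.conj (j⁻¹ * g)).toMonoidHom ≤ J := by
    refine sup_le le_sup_left ?_
    rintro _ ⟨k, hk, rfl⟩
    have h1 : g * k * g⁻¹ ∈ J := Subgroup.mem_sup_right ⟨k, hk, rfl⟩
    have : j⁻¹ * (g * k * g⁻¹) * j ∈ J := mul_mem (mul_mem (inv_mem hj) h1) hj
    simpa [mul_assoc] using this
  refine ⟨j * w, mul_mem hj (hle hw), ?_⟩
  rw [← map_conj_map H j w, ← hwe, map_conj_map, mul_inv_cancel_left]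

/-- Pronormality descends along surjections. -/
theorem isPronormal_of_comap {G' : Type*} [Group G'] (π : G →* G') (hπ : Function.Surjective π)
    {H : Subgroup G'} (h : Cfsg.IsPronormal (H.comap π)) : Cfsg.IsPronormal H := by
  intro g'
  obtain ⟨g, rfl⟩ := hπ g'
  obtain ⟨x, hx, hxe⟩ := h g
  have key : ∀ y : G, ((H.comap π).map (MulAut.conj y).toMonoidHom).map π =
      H.map (MulAut.conj (π y)).toMonoidHom := fun y => by
    conv_rhs => rw [← Subgroup.map_comap_eq_self_of_surjective hπ H]
    rw [Subgroup.map_map, Subgroup.map_map]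
    congr 1
    ext; simp
  refine ⟨π x, ?_, ?_⟩
  · have := Subgroup.mem_map_of_mem π hx
    rwa [Subgroup.map_sup, Subgroup.map_comap_eq_self_of_surjective hπ, key] at this
  · rw [← key, hxe, key]

/-- Pronormality is invariant under automorphisms. -/
theorem isPronormal_map_equiv {G' : Type*} [Group G'] (e : G ≃* G') {H : Subgroup G}
    (h : Cfsg.IsPronormal H) : Cfsg.IsPronormal (H.map e.toMonoidHom) := by
  refine isPronormal_of_comap e.symm.symm.toMonoidHom e.surjective (H := H.map e.toMonoidHom) ?_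
  convert h
  exact Subgroup.comap_map_eq_self_of_injective e.injective H

/-- A subgroup of index prime to `p` contains a Sylow subgroup. -/
theorem exists_sylow_le [Finite G] {p : ℕ} [Fact p.Prime] {H : Subgroup G} (hH : ¬ p ∣ H.index) :
    ∃ S : Sylow p G, (S : Subgroup G) ≤ H := by
  classical
  obtain ⟨P⟩ : Nonempty (Sylow p H) := inferInstance
  set T₀ : Subgroup G := (P : Subgroup H).map H.subtype with hT₀
  have hcard : Nat.card T₀ = p ^ (Nat.card G).factorization p := by
    rw [hT₀, Subgroup.card_map_of_injective H.subtype_injective, P.card_eq_multiplicity, ← H.card_mul_index,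
      Nat.factorization_mul Nat.card_pos.ne' H.index_ne_zero_of_finite, Finsupp.add_apply,
      Nat.factorization_eq_zero_of_not_dvd hH, add_zero]
  exact ⟨Sylow.ofCard T₀ hcard, Subgroup.map_subtype_le _⟩

/-- Reduction to a given Sylow subgroup. -/
theorem isPronormal_of_all [Finite G] {p : ℕ} [Fact p.Prime] (P : Sylow p G)
    (h : ∀ H : Subgroup G, (P : Subgroup G) ≤ H → ∀ g ∈ Subgroup.normalizer ((P : Subgroup G) : Set G),
      ∃ w ∈ H ⊔ H.map (MulAut.conj g).toMonoidHom,
        H.map (MulAut.conj g).toMonoidHom = H.map (MulAut.conj w).toMonoidHom)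
    {H : Subgroup G} (hH : ¬ p ∣ H.index) : Cfsg.IsPronormal H := by
  obtain ⟨S, hS⟩ := exists_sylow_le hH
  obtain ⟨c, rfl⟩ := MulAction.exists_smul_eq G P S
  set H' := H.map (MulAut.conj c⁻¹).toMonoidHom with hH'
  have hPH : (P : Subgroup G) ≤ H' := fun y hy => by
    refine ⟨c * y * c⁻¹, hS ?_, by simp [mul_assoc]⟩
    rw [Sylow.coe_subgroup_smul]
    exact ⟨y, hy, rfl⟩
  have hpr := isPronormal_of_sylow P hPH (h H' hPH)
  have e := isPronormal_map_equiv (MulAut.conj c) hpr
  rw [hH', show (MulAut.conj c : G ≃* G).toMonoidHom = (MulAut.conj c).toMonoidHom from rfl,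
    map_conj_map, mul_inv_cancel, map_one] at e
  convert e using 1
  exact (Subgroup.map_id H).symm

theorem pronormal_witness_of_normalizer {H : Subgroup G} {g : G}
    (hg : H.map (MulAut.conj g).toMonoidHom = H) :
    ∃ w ∈ H ⊔ H.map (MulAut.conj g).toMonoidHom,
      H.map (MulAut.conj g).toMonoidHom = H.map (MulAut.conj w).toMonoidHom :=
  ⟨1, one_mem _, by rw [hg, conj_eq_of_mem (one_mem _)]⟩

end CfsgLib.PronPSL
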