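import Cfsg.Agent.PronPSL.Overgroup
import Cfsg.Agent.PronPSL.Chain
import Cfsg.Agent.PronPSL.KleinMain

/-!
Subgroups of odd index of `PSL` in two-power dimension are pronormal.
-/

set_option autoImplicit false

namespace CfsgLib.PronPSL

open Matrix

variable {F : Type*} [Field F] [Fintype F]

theorem pronormal_psl_two_klein (hq : Fintype.card F % 8 = 3 ∨ Fintype.card F % 8 = 5)
    {H : Subgroup (ProjectiveSpecialLinearGroup (Fin 2) F)} (hH : ¬ 2 ∣ H.index) :
    Cfsg.IsPronormal H := by
  classical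
  haveI := Fact.mk Nat.prime_two
  have h2 : (2 : F) ≠ 0 := Ring.two_ne_zero (fun h => by
    have := FiniteField.even_card_iff_char_two.1 h
    omega)
  obtain ⟨j, hj⟩ := exists_J (F := F) h2
  set G := ProjectiveSpecialLinearGroup (Fin 2) F
  let π : SpecialLinearGroup (Fin 2) F →* G := QuotientGroup.mk' _
  let I : SpecialLinearGroup (Fin 2) F := ⟨el 0 1, by rw [el_det]; ring⟩
  let J : SpecialLinearGroup (Fin 2) F := ⟨(j : Matrix (Fin 2) (Fin 2) F), hj.det⟩
  have hneg : π (-1) = 1 := (QuotientGroup.eq_one_iff _).2 (Subgroup.mem_center_iff.2 fun g => by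
    refine Subtype.ext ?_
    show g.1 * (-1 : SpecialLinearGroup (Fin 2) F).1 = (-1 : SpecialLinearGroup (Fin 2) F).1 * g.1
    simp)
  have hII : I * I = -1 := Subtype.ext (by
    show el 0 1 * el 0 1 = ((-1 : SpecialLinearGroup (Fin 2) F) : Matrix (Fin 2) (Fin 2) F)
    rw [el_mul]
    simp only [Matrix.SpecialLinearGroup.coe_neg, Matrix.SpecialLinearGroup.coe_one]
    ext a b; fin_cases a <;> fin_cases b <;> simp [el])
  have hJJ : J * J = -1 := Subtype.ext (by
    show (j : Matrix (Fin 2) (Fin 2) F) * j = ((-1 : SpecialLinearGroup (Fin 2) F) : Matrix (Fin 2) (Fin 2) F)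
    rw [← Units.val_mul, hj.sq]
    simp)
  have hJI : J * I = -1 * (I * J) := Subtype.ext (by
    show (j : Matrix (Fin 2) (Fin 2) F) * el 0 1 =
      ((-1 : SpecialLinearGroup (Fin 2) F) : Matrix (Fin 2) (Fin 2) F) * (el (0 : F) 1 * (j : Matrix (Fin 2) (Fin 2) F))
    simp only [Matrix.SpecialLinearGroup.coe_neg, Matrix.SpecialLinearGroup.coe_one, neg_one_mul]
    have := congrArg (fun z : GL (Fin 2) F => (z : Matrix (Fin 2) (Fin 2) F)) hj.anti
    simpa [eI_coe] using this)
  set u := π I with hu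
  set w := π J with hw
  have hu2 : u * u = 1 := by rw [hu, ← map_mul, hII, hneg]
  have hw2 : w * w = 1 := by rw [hw, ← map_mul, hJJ, hneg]
  have hc : Commute u w := by
    show u * w = w * u
    rw [hu, hw, ← map_mul, ← map_mul, hJI, map_mul π (-1), hneg, one_mul]
  have hcase : ∀ X Y : SpecialLinearGroup (Fin 2) F, π X = π Y →
      (X : Matrix (Fin 2) (Fin 2) F) = Y ∨ (X : Matrix (Fin 2) (Fin 2) F) = -(Y : Matrix (Fin 2) (Fin 2) F) :=
    fun X Y h => lift_eq_pm h
  have hne0 : (1 : F) ≠ 0 := one_ne_zero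
  have hu1 : u ≠ 1 := fun h => by
    rcases hcase I 1 (h.trans (map_one π).symm) with e | e <;>
    · have := congrFun (congrFun e 1) 0
      simp [I, el] at this
  have hw1 : w ≠ 1 := fun h => by
    have ha := congrArg (fun z : GL (Fin 2) F => (z : Matrix (Fin 2) (Fin 2) F)) hj.anti
    rcases hcase J 1 (h.trans (map_one π).symm) with e | e
    · have e' : j = 1 := Units.ext e
      rw [e', one_mul, mul_one] at ha
      exact neg_ne_self h2 (eI : GL (Fin 2) F) (Units.ext ha)
    · have e' : j = -1 := Units.ext (by simpa [J] using e)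
      rw [e', neg_one_mul, mul_neg_one, neg_neg] at ha
      exact neg_ne_self h2 (eI : GL (Fin 2) F) (Units.ext ha.symm)
  have huw : u ≠ w := fun h => by
    have ha := congrArg (fun z : GL (Fin 2) F => (z : Matrix (Fin 2) (Fin 2) F)) hj.anti
    rcases hcase I J h with e | e
    · have e' : j = eI := Units.ext e.symm
      rw [e'] at ha
      exact neg_ne_self h2 ((eI : GL (Fin 2) F) * eI) (Units.ext ha)
    · have e' : j = -(eI : GL (Fin 2) F) := Units.ext (by
        have e2 : el 0 1 = -(j : Matrix (Fin 2) (Fin 2) F) := e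
        rw [Units.val_neg, eI_coe, e2, neg_neg])
      rw [e', neg_mul, mul_neg, neg_neg] at ha
      exact neg_ne_self h2 ((eI : GL (Fin 2) F) * eI) (Units.ext ha.symm)
  let V : Subgroup G :=
    { carrier := {x | x = 1 ∨ x = u ∨ x = w ∨ x = u * w}
      one_mem' := Or.inl rfl
      mul_mem' := by
        have e1 : u * (u * w) = w := by rw [← mul_assoc, hu2, one_mul]
        have e2 : w * (u * w) = u := by rw [hc.eq, ← mul_assoc, hw2, one_mul]
        have e3 : u * w * u = w := by rw [hc.eq, mul_assoc, hu2, mul_one]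
        have e4 : u * w * w = u := by rw [mul_assoc, hw2, mul_one]
        have e5 : u * w * (u * w) = 1 := by rw [mul_assoc, e2, hu2]
        rintro x y (rfl | rfl | rfl | rfl) (rfl | rfl | rfl | rfl) <;>
          simp [hu2, hw2, e1, e2, e3, e4, e5, ← hc.eq]
      inv_mem' := by
        rintro x (rfl | rfl | rfl | rfl)
        · exact Or.inl inv_one
        · exact Or.inr (Or.inl (inv_eq_of_mul_eq_one_right hu2))
        · exact Or.inr (Or.inr (Or.inl (inv_eq_of_mul_eq_one_right hw2)))
        · exact Or.inr (Or.inr (Or.inr (inv_eq_of_mul_eq_one_right (by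
            rw [mul_assoc, hc.eq, ← mul_assoc w, hw2, one_mul, hu2])))) }
  have hVcard : Nat.card V = 4 := by
    have hset : (V : Set G) = (({1, u, w, u * w} : Finset G) : Set G) := by
      ext x
      simp [V]
    rw [← SetLike.coe_sort_coe, hset, Nat.card_coe_set_eq, Set.ncard_coe_finset]
    have huw1 : u * w ≠ 1 := fun h => huw (by
      rw [← inv_eq_of_mul_eq_one_right hu2]; exact inv_eq_of_mul_eq_one_right h)
    have h1 : u * w ≠ u := fun h => hw1 (mul_eq_left.1 h)
    have h2' : u * w ≠ w := fun h => hu1 (mul_eq_right.1 h)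
    simp [hu1.symm, hw1.symm, huw, huw1.symm, h1.symm, h2'.symm]
  have hfac : (Nat.card G).factorization 2 = 2 := by
    have h := CfsgLib.SLn.card_PSL2_eq F
    obtain ⟨k, hk⟩ : ∃ k, Fintype.card F = 8 * k + 3 ∨ Fintype.card F = 8 * k + 5 :=
      ⟨Fintype.card F / 8, by omega⟩
    have hg : Nat.gcd 2 (Fintype.card F - 1) = 2 := Nat.gcd_eq_left (by omega)
    rw [hg] at h
    obtain ⟨m, hm, hmo⟩ : ∃ m, Nat.card G = 4 * m ∧ ¬ 2 ∣ m := by
      rcases hk with hk | hk
      · refine ⟨(8 * k + 3) * (8 * k * k + 6 * k + 1), ?_, ?_⟩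
        · rw [hk, show (8 * k + 3) ^ 2 - 1 = 8 * (8 * k * k + 6 * k + 1) by
            have : (8 * k + 3) ^ 2 = 8 * (8 * k * k + 6 * k + 1) + 1 := by ring
            omega] at h
          change 2 * Nat.card G = _ at h
          have : (8 * k + 3) * (8 * (8 * k * k + 6 * k + 1)) =
              2 * (4 * ((8 * k + 3) * (8 * k * k + 6 * k + 1))) := by ring
          omega
        · rw [Nat.two_dvd_ne_zero, Nat.mul_mod]
          have h1 : (8 * k + 3) % 2 = 1 := by omega
          have h2' : (8 * k * k + 6 * k + 1) % 2 = 1 := by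
            rw [show 8 * k * k + 6 * k + 1 = 2 * (4 * k * k + 3 * k) + 1 by ring]; omega
          rw [h1, h2']
      · refine ⟨(8 * k + 5) * (8 * k * k + 10 * k + 3), ?_, ?_⟩
        · rw [hk, show (8 * k + 5) ^ 2 - 1 = 8 * (8 * k * k + 10 * k + 3) by
            have : (8 * k + 5) ^ 2 = 8 * (8 * k * k + 10 * k + 3) + 1 := by ring
            omega] at h
          change 2 * Nat.card G = _ at h
          have : (8 * k + 5) * (8 * (8 * k * k + 10 * k + 3)) =
              2 * (4 * ((8 * k + 5) * (8 * k * k + 10 * k + 3))) := by ring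
          omega
        · rw [Nat.two_dvd_ne_zero, Nat.mul_mod]
          have h1 : (8 * k + 5) % 2 = 1 := by omega
          have h2' : (8 * k * k + 10 * k + 3) % 2 = 1 := by
            rw [show 8 * k * k + 10 * k + 3 = 2 * (4 * k * k + 5 * k + 1) + 1 by ring]; omega
          rw [h1, h2']
    rw [hm, show (4 : ℕ) = 2 ^ 2 from rfl, Nat.factorization_mul (by norm_num) (by
      intro h0; exact hmo (h0 ▸ dvd_zero 2)), Finsupp.add_apply, Nat.factorization_pow_self Nat.prime_two,
      Nat.factorization_eq_zero_of_not_dvd hmo]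
  let P : Sylow 2 G := Sylow.ofCard V (by rw [hfac, hVcard]; norm_num)
  exact isPronormal_of_all P (fun K hK g hg =>
    klein_witness h2 P (fun x => Iff.rfl) hu1 hw1 huw hu2 hw2 hc K hK g hg) hH

theorem pronormal_psl (w : ℕ) (hw : 1 ≤ w)
    (H : Subgroup (ProjectiveSpecialLinearGroup (Fin (2 ^ w)) F)) (hH : Odd H.index) :
    Cfsg.IsPronormal H := by
  classical
  haveI := Fact.mk Nat.prime_two
  haveI : Finite (SpecialLinearGroup (Fin (2 ^ w)) F) :=
    Finite.of_injective (fun a : SpecialLinearGroup (Fin (2 ^ w)) F => (a : Matrix (Fin (2 ^ w)) (Fin (2 ^ w)) F)) Subtype.val_injective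
  have hH2 : ¬ 2 ∣ H.index := fun h => (Nat.not_even_iff_odd.2 hH) (even_iff_two_dvd.2 h)
  by_cases hk : w = 1 ∧ (Fintype.card F % 8 = 3 ∨ Fintype.card F % 8 = 5)
  · obtain ⟨rfl, hq⟩ := hk
    exact pronormal_psl_two_klein hq hH2
  set π := QuotientGroup.mk' (Subgroup.center (SpecialLinearGroup (Fin (2 ^ w)) F))
  have hπ : Function.Surjective π := QuotientGroup.mk'_surjective _
  refine isPronormal_of_comap π hπ ?_
  set K := H.comap π with hK
  have hK2 : ¬ 2 ∣ K.index := by rwa [hK, Subgroup.index_comap_of_surjective _ hπ]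
  have hZK : Subgroup.center (SpecialLinearGroup (Fin (2 ^ w)) F) ≤ K := fun z hz => by
    rw [hK, Subgroup.mem_comap, show π z = 1 from (QuotientGroup.eq_one_iff z).2 hz]
    exact one_mem H
  by_cases h2 : (2 : F) = 0
  · haveI : CharP F 2 := CharTwo.of_one_ne_zero_of_two_eq_zero one_ne_zero h2
    obtain ⟨P, hP⟩ := CfsgLib.SLn.Unip.exists_sylow_eq_upperUni (K := F) (n := 2 ^ w) 2
    refine isPronormal_of_all P (fun L hL g hg => ?_) hK2
    rw [hP] at hL hg
    exact pronormal_witness_of_normalizer (conj_eq_of_mem (normalizes hL 2 hg))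
  · have hq : w = 1 → Nat.card F % 8 = 1 ∨ Nat.card F % 8 = 7 := fun hw1 => by
      have hodd := FiniteField.odd_card_of_char_ne_two (F := F) (fun h => h2 (by
        haveI := ringChar.of_eq h
        exact CharP.cast_eq_zero F 2))
      rw [Nat.card_eq_fintype_card]
      have : ¬ (Fintype.card F % 8 = 3 ∨ Fintype.card F % 8 = 5) := fun h => hk ⟨hw1, h⟩
      omega
    obtain ⟨P, hP⟩ := ns_fin (F := F) h2 w hw hq
    obtain ⟨S, hS⟩ := exists_sylow_le hK2
    obtain ⟨c, rfl⟩ := MulAction.exists_smul_eq (SpecialLinearGroup (Fin (2 ^ w)) F) P S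
    refine isPronormal_of_sylow _ hS fun g hg => pronormal_witness_of_normalizer (conj_eq_of_mem (Subgroup.le_normalizer ?_))
    have hg' : c⁻¹ * g * c ∈ Subgroup.normalizer ((P : Subgroup (SpecialLinearGroup (Fin (2 ^ w)) F)) : Set _) := by
      refine Sylow.smul_eq_iff_mem_normalizer.1 ?_
      rw [mul_smul, mul_smul, Sylow.smul_eq_iff_mem_normalizer.2 hg, inv_smul_smul]
    obtain ⟨s, hs, z, hz, hsz⟩ := Subgroup.mem_sup_of_normal_right.1 (hP _ hg')
    rw [show g = (c * s * c⁻¹) * (c * z * c⁻¹) by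
      rw [show c * s * c⁻¹ * (c * z * c⁻¹) = c * (s * z) * c⁻¹ by group, hsz]; group]
    refine mul_mem (hS ?_) (hZK ((Subgroup.Normal.conj_mem inferInstance z hz c)))
    rw [Sylow.coe_subgroup_smul]
    exact ⟨s, hs, rfl⟩

end CfsgLib.PronPSL
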