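import Cfsg.Agent.SLn.Unipotent

/-!
Subgroups containing the upper unitriangular group are normalised by the upper triangular one.
-/

set_option autoImplicit false

namespace CfsgLib.PronPSL

open Matrix Matrix.SpecialLinearGroup
open CfsgLib.SLn CfsgLib.SLn.Unip

variable {K : Type*} [Field K] {n : ℕ}

local notation "SLnK" => SpecialLinearGroup (Fin n) K

/-- The rank one element `1 + v w`. -/
def rk (v w : Fin n → K) (h : w ⬝ᵥ v = 0) : SLnK :=
  ⟨1 + Matrix.vecMulVec v w, by
    rw [Matrix.vecMulVec_eq Unit, Matrix.det_one_add_replicateCol_mul_replicateRow, h, add_zero]⟩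

theorem rk_coe (v w : Fin n → K) (h : w ⬝ᵥ v = 0) :
    (rk v w h : Matrix (Fin n) (Fin n) K) = 1 + Matrix.vecMulVec v w := rfl

theorem rk_mul_same (v a b : Fin n → K) (ha : a ⬝ᵥ v = 0) (hb : b ⬝ᵥ v = 0) :
    rk v a ha * rk v b hb = rk v (a + b) (by rw [add_dotProduct, ha, hb, add_zero]) := by
  refine Subtype.ext ?_
  show (1 + vecMulVec v a) * (1 + vecMulVec v b) = 1 + vecMulVec v (a + b)
  rw [add_mul, one_mul, mul_add, mul_one, Matrix.vecMulVec_mul_vecMulVec, ha, zero_smul,
    Matrix.vecMulVec_zero, add_zero, Matrix.vecMulVec_add, add_assoc, add_comm (vecMulVec v b)]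

theorem rk_single (a b : Fin n) (hab : a ≠ b) (c : K) :
    rk (Pi.single a 1) (Pi.single b c) (by simp [hab]) = transvection hab c := by
  refine Subtype.ext ?_
  rw [rk_coe, transvection_coe]
  congr 1
  ext i j
  rw [vecMulVec_apply, Pi.single_apply, Pi.single_apply, Matrix.single_apply]
  by_cases hi : i = a
  · by_cases hj : j = b
    · rw [if_pos hi, if_pos hj, if_pos ⟨hi.symm, hj.symm⟩, one_mul]
    · rw [if_pos hi, if_neg hj, if_neg (show ¬(a = i ∧ b = j) from fun h => hj h.2.symm), mul_zero]
  · rw [if_neg hi, if_neg (show ¬(a = i ∧ b = j) from fun h => hi h.1.symm), zero_mul]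

theorem conj_rk (g : SLnK) (v w : Fin n → K) (h : w ⬝ᵥ v = 0)
    (h' : (w ᵥ* (g⁻¹ : SLnK).1) ⬝ᵥ (g.1 *ᵥ v) = 0) :
    g * rk v w h * g⁻¹ = rk (g.1 *ᵥ v) (w ᵥ* (g⁻¹ : SLnK).1) h' := by
  refine Subtype.ext ?_
  show g.1 * (1 + vecMulVec v w) * (g⁻¹ : SLnK).1 = 1 + vecMulVec (g.1 *ᵥ v) (w ᵥ* (g⁻¹ : SLnK).1)
  rw [mul_add, mul_one, add_mul, Matrix.mul_vecMulVec, Matrix.vecMulVec_mul]
  congr 1
  show (g * g⁻¹ : SLnK).1 = 1
  rw [mul_inv_cancel]; rfl

theorem dot_conj (g : SLnK) (v w : Fin n → K) (h : w ⬝ᵥ v = 0) :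
    (w ᵥ* (g⁻¹ : SLnK).1) ⬝ᵥ (g.1 *ᵥ v) = 0 := by
  rw [← Matrix.dotProduct_mulVec, Matrix.mulVec_mulVec]
  show w ⬝ᵥ ((g⁻¹ * g : SLnK).1 *ᵥ v) = 0
  rw [inv_mul_cancel]
  show w ⬝ᵥ ((1 : Matrix (Fin n) (Fin n) K) *ᵥ v) = 0
  rw [Matrix.one_mulVec, h]

variable (H : Subgroup (SpecialLinearGroup (Fin n) K))

/-- The pairs whose root group lies in `H`. -/
def Root (a b : Fin n) : Prop := ∀ (hab : a ≠ b) (c : K), transvection hab c ∈ H

/-- The group generated by the root groups inside `H`. -/
def rootHull : Subgroup SLnK :=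
  Subgroup.closure {g | ∃ (a b : Fin n) (hab : a ≠ b) (c : K), Root H a b ∧ g = transvection hab c}

theorem rootHull_le : rootHull H ≤ H :=
  (Subgroup.closure_le _).2 (by rintro _ ⟨a, b, hab, c, hR, rfl⟩; exact hR hab c)

theorem rk_single_mem_rootHull {k : Fin n} {a : Fin n → K} (ha : a ⬝ᵥ Pi.single k 1 = 0)
    (hR : ∀ l, l ≠ k → a l ≠ 0 → Root H k l) : rk (Pi.single k 1) a ha ∈ rootHull H := by
  classical
  have hak : a k = 0 := by simpa using ha
  suffices h : ∀ s : Finset (Fin n), ∀ h0, rk (Pi.single k 1)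
      (∑ l ∈ s, Pi.single l (a l)) h0 ∈ rootHull H by
    have e := Finset.univ_sum_single a
    convert h Finset.univ (by rw [e]; exact ha) using 2
    exact e.symm
  intro s
  induction s using Finset.induction with
  | empty =>
    intro h0
    convert one_mem (rootHull H)
    refine Subtype.ext ?_
    rw [rk_coe, Finset.sum_empty, Matrix.vecMulVec_zero, add_zero]; rfl
  | insert l s hl ih =>
    intro h0
    have key : ∀ t : Finset (Fin n), (∑ l ∈ t, Pi.single l (a l)) ⬝ᵥ Pi.single k 1 = 0 := fun t => by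
      rw [dotProduct_single, mul_one, Finset.sum_apply]
      refine Finset.sum_eq_zero fun j _ => ?_
      by_cases hjk : k = j
      · subst hjk; simp [hak]
      · simp [hjk]
    have hmem : rk (Pi.single k 1) (Pi.single l (a l)) (by simpa using key {l}) ∈ rootHull H := by
      by_cases hal : a l = 0
      · convert one_mem (rootHull H)
        refine Subtype.ext ?_
        rw [rk_coe, hal, Pi.single_zero, Matrix.vecMulVec_zero, add_zero]; rfl
      · have hkl : k ≠ l := fun h => hal (h ▸ hak)
        rw [rk_single k l hkl]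
        exact Subgroup.subset_closure ⟨k, l, hkl, a l, hR l hkl.symm hal, rfl⟩
    have := mul_mem hmem (ih (key s))
    rw [rk_mul_same] at this
    convert this using 2
    exact Finset.sum_insert hl

variable {H} [Finite K] (hU : upperUni K n ≤ H)
include hU

theorem root_upper {a b : Fin n} (h : a < b) : Root H a b :=
  fun _ c => hU (transvection_mem h c)

theorem upperUni_le_rootHull : upperUni K n ≤ rootHull H :=
  upperUni_le_closure.trans ((Subgroup.closure_le _).2 (by
    rintro _ ⟨a, b, hab, c, rfl⟩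
    exact Subgroup.subset_closure ⟨a, b, hab.ne, c, root_upper hU hab, rfl⟩))

/-- A full rank one family at a basis vector lies in the hull. -/
theorem rk_family_mem {k : Fin n} {w : Fin n → K} (hw : w ⬝ᵥ Pi.single k 1 = 0)
    (hH : ∀ c : K, rk (Pi.single k 1) (c • w) (by rw [smul_dotProduct, hw, smul_zero]) ∈ H) :
    rk (Pi.single k 1) w hw ∈ rootHull H := by
  classical
  have hwk : w k = 0 := by simpa using hw
  -- commutators
  have comm : ∀ l i : Fin n, w l ≠ 0 → l < i → i ≠ k → Root H k i := by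
    intro l i hl hli hik hki c
    set t := transvection hli.ne (1 : K) with ht
    set a := (c / w l) • w with ha
    have ha0 : a ⬝ᵥ Pi.single k 1 = 0 := by rw [ha, smul_dotProduct, hw, smul_zero]
    have hal : a l = c := by rw [ha, Pi.smul_apply, smul_eq_mul, div_mul_cancel₀ _ hl]
    have hlk : l ≠ k := fun h => hl (h ▸ hwk)
    have hneg : (-a) ⬝ᵥ Pi.single k 1 = 0 := by rw [neg_dotProduct, ha0, neg_zero]
    have hm : rk (Pi.single k 1) a ha0 * t * rk (Pi.single k 1) (-a) hneg *
        transvection hli.ne (-1 : K) ∈ H := by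
      refine mul_mem (mul_mem (mul_mem (hH _) (hU (transvection_mem hli 1))) ?_)
        (hU (transvection_mem hli _))
      have := hH (-(c / w l))
      convert this using 2
      rw [ha, neg_smul]
    convert hm
    rw [ht]
    refine Subtype.ext ?_
    show _ = (1 + vecMulVec (Pi.single k 1) a) * (1 + Matrix.single l i 1) *
      (1 + vecMulVec (Pi.single k 1) (-a)) * (1 + Matrix.single l i (-1))
    rw [transvection_coe]
    congr 1
    set A := vecMulVec (Pi.single k (1 : K)) a with hA
    set B := Matrix.single l i (1 : K) with hB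
    have hAn : vecMulVec (Pi.single k (1 : K)) (-a) = -A := by rw [hA, Matrix.vecMulVec_neg]
    have hBn : Matrix.single l i (-1 : K) = -B := by rw [hB, ← Matrix.single_neg]
    have hAA : A * A = 0 := by
      rw [hA, Matrix.vecMulVec_mul_vecMulVec, ha0, zero_smul, Matrix.vecMulVec_zero]
    have hBB : B * B = 0 := by rw [hB]; simp [hli.ne']
    have hBA : B * A = 0 := by
      ext p q
      simp [hB, hA, Matrix.mul_apply, Matrix.single_apply, vecMulVec_apply, Pi.single_apply, hik]
    have hAB : A * B = Matrix.single k i c := by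
      ext p q
      simp only [hB, hA, Matrix.mul_apply, Matrix.single_apply, vecMulVec_apply, Pi.single_apply]
      rw [Finset.sum_eq_single l (fun j _ hj => by simp [hj.symm]) (by simp)]
      by_cases hp : p = k <;> by_cases hq : i = q <;>
        simp [hp, hq, hal, eq_comm, show ¬ (p = k) → ¬ (k = p) from fun h e => h e.symm]
    rw [hAn, hBn, ← hAB]
    have h1 : A * B * A = 0 := by rw [mul_assoc, hBA, mul_zero]
    have h2 : A * B * B = 0 := by rw [mul_assoc, hBB, mul_zero]
    simp only [mul_add, add_mul, mul_one, one_mul, mul_neg, neg_mul, hAA, hBB, hBA, h1, h2,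
      add_zero]
    abel
  -- the lowest entry
  by_cases hs : ∀ l, w l ≠ 0 → Root H k l
  · exact rk_single_mem_rootHull H hw fun l _ h => hs l h
  push Not at hs
  obtain ⟨l₀, hl₀, hnR⟩ := hs
  have hl₀k : l₀ ≠ k := fun h => hl₀ (h ▸ hwk)
  have others : ∀ l, l ≠ l₀ → w l ≠ 0 → Root H k l := by
    intro l hne hl
    rcases lt_or_gt_of_ne hne with h | h
    · exact absurd (comm l l₀ hl h hl₀k) hnR
    · exact comm l₀ l hl₀ h (fun e => hl (e ▸ hwk))
  have hR : Root H k l₀ := by
    intro hkl c
    set s := c / w l₀ with hs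
    set rest := s • w - Pi.single l₀ c with hrest
    have hr0 : (-rest) ⬝ᵥ Pi.single k 1 = 0 := by
      simp [hrest, hwk, hkl, sub_dotProduct]
    have hrm : rk (Pi.single k 1) (-rest) hr0 ∈ rootHull H :=
      rk_single_mem_rootHull H hr0 fun l _ h => by
        by_cases hll : l = l₀
        · refine absurd ?_ h
          simp [hrest, hll, hs, div_mul_cancel₀ _ hl₀]
        · refine others l hll fun h' => h ?_
          simp [hrest, h', hll]
    have := mul_mem (hH s) (rootHull_le H hrm)
    rw [rk_mul_same] at this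
    rw [← rk_single k l₀ hkl c]
    convert this using 2
    rw [hrest]; abel
  exact absurd hR hnR

/-- The conjugates of the upper transvections lie in the hull. -/
theorem conj_upper_mem {h : SLnK} (hh : h ∈ H) {i j : Fin n} (hij : i < j) (c : K) :
    h * transvection hij.ne c * h⁻¹ ∈ rootHull H := by
  classical
  rw [← rk_single i j hij.ne c, conj_rk h _ _ (by simp [hij.ne]) (dot_conj h _ _ (by simp [hij.ne]))]
  set v := h.1 *ᵥ Pi.single i (1 : K) with hv
  set w := Pi.single j c ᵥ* (h⁻¹ : SLnK).1 with hw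
  have hfam : ∀ d : K, ∀ h0, rk v (d • w) h0 ∈ H := fun d h0 => by
    have hm : h * transvection hij.ne (d * c) * h⁻¹ ∈ H :=
      mul_mem (mul_mem hh (hU (transvection_mem hij _))) (inv_mem hh)
    rw [← rk_single i j hij.ne, conj_rk h _ _ (by simp [hij.ne]) (dot_conj h _ _ (by simp [hij.ne]))] at hm
    convert hm using 2
    rw [hw, ← Matrix.smul_vecMul, ← Pi.single_smul', smul_eq_mul]
  obtain ⟨k, hk, hmax⟩ := (Finset.univ.filter fun l => v l ≠ 0).exists_max_image (fun l => l) (by
    by_contra he
    rw [Finset.not_nonempty_iff_eq_empty, Finset.filter_eq_empty_iff] at he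
    have hv0 : v = 0 := funext fun l => not_not.1 (he (Finset.mem_univ l))
    have := congrArg (fun z => (h⁻¹ : SLnK).1 *ᵥ z) hv0
    simp only [hv, Matrix.mulVec_zero, Matrix.mulVec_mulVec] at this
    rw [show (h⁻¹ : SLnK).1 * h.1 = 1 from congrArg Subtype.val (inv_mul_cancel h), Matrix.one_mulVec] at this
    simpa using congrFun this i)
  simp only [Finset.mem_filter, Finset.mem_univ, true_and] at hk hmax
  set z : Fin n → K := fun l => if l = k then 0 else -(v l / v k) with hz
  have hz0 : Pi.single k (1 : K) ⬝ᵥ z = 0 := by simp [hz]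
  set u := rk z (Pi.single k 1) hz0 with hu
  have huU : u ∈ upperUni K n := by
    refine mem_upperUni.2 ⟨fun p q hqp => ?_, fun p => ?_⟩
    · rw [hu, rk_coe, Matrix.add_apply, Matrix.one_apply_ne hqp.ne', vecMulVec_apply, zero_add]
      by_cases hq : q = k
      · subst hq
        have : v p = 0 := by
          by_contra h'
          exact absurd (hmax p h') (not_le.2 hqp)
        simp [hz, this]
      · simp [hq]
    · rw [hu, rk_coe, Matrix.add_apply, Matrix.one_apply_eq, vecMulVec_apply]
      by_cases hp : p = k <;> simp [hz, hp]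
  have huv : u.1 *ᵥ v = v k • Pi.single k 1 := by
    ext p
    rw [hu, rk_coe, Matrix.add_mulVec, Matrix.one_mulVec, Matrix.vecMulVec_mulVec]
    by_cases hp : p = k
    · subst hp; simp [hz]
    · simp [hz, hp, mul_div_cancel₀ _ hk]
  have hu' := upperUni_le_rootHull hU huU
  refine (Subgroup.mul_mem_cancel_left _ hu').1 ((Subgroup.mul_mem_cancel_right _ (inv_mem hu')).1 ?_)
  rw [conj_rk u _ _ _ (dot_conj u _ _ (dot_conj h _ _ (by simp [hij.ne])))]
  set w' := w ᵥ* (u⁻¹ : SLnK).1 with hw'
  have hw'0 : (v k • w') ⬝ᵥ Pi.single k 1 = 0 := by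
    rw [smul_dotProduct, ← dotProduct_smul, ← huv]
    exact dot_conj u _ _ (dot_conj h _ _ (by simp [hij.ne]))
  have e : ∀ a h1 h2, rk (u.1 *ᵥ v) a h1 = rk (Pi.single k 1) (v k • a) h2 := fun a h1 h2 => by
    refine Subtype.ext ?_
    rw [rk_coe (u.1 *ᵥ v), rk_coe (Pi.single k (1 : K)), huv, Matrix.smul_vecMulVec, Matrix.vecMulVec_smul]
  rw [e _ _ hw'0]
  refine rk_family_mem hU hw'0 fun d => ?_
  have hm := mul_mem (mul_mem (hU huU) (hfam d (by
    rw [smul_dotProduct]; exact smul_eq_zero_of_right d (dot_conj h _ _ (by simp [hij.ne])))))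
    (inv_mem (hU huU))
  have hd0 : (d • w) ᵥ* (u⁻¹ : SLnK).1 ⬝ᵥ u.1 *ᵥ v = 0 := dot_conj u _ _ (by
    rw [smul_dotProduct]; exact smul_eq_zero_of_right d (dot_conj h _ _ (by simp [hij.ne])))
  rw [conj_rk u _ _ _ hd0, e _ _ (by rw [smul_dotProduct, ← dotProduct_smul, ← huv]; exact hd0)] at hm
  convert hm using 2
  rw [hw', Matrix.smul_vecMul, smul_comm]

/-- Frattini: the overgroup is normalised by every upper triangular element. -/
theorem normalizes (p : ℕ) [Fact p.Prime] [CharP K p] {g : SLnK}
    (hg : g ∈ Subgroup.normalizer (upperUni K n : Set SLnK)) :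
    g ∈ Subgroup.normalizer (H : Set SLnK) := by
  classical
  have hgu : IsUpper g := isUpper_of_conj_mem fun u hu => (Subgroup.mem_normalizer_iff.1 hg u).1 hu
  haveI : Finite SLnK := Finite.of_injective (fun a : SLnK => (a : Matrix (Fin n) (Fin n) K)) Subtype.val_injective
  obtain ⟨P, hP⟩ := exists_sylow_eq_upperUni (K := K) (n := n) p
  have hEU := upperUni_le_rootHull hU
  -- the torus part keeps the hull
  have hd0 : ∀ a, (g : Matrix (Fin n) (Fin n) K) a a ≠ 0 := fun a h0 => by
    have := g.2
    rw [Matrix.det_of_isUpperTriangular (show Matrix.BlockTriangular g.1 id from hgu)] at this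
    exact one_ne_zero (this.symm.trans (Finset.prod_eq_zero (Finset.mem_univ a) h0))
  let t : SLnK := ⟨Matrix.diagonal fun a => g.1 a a, by
    rw [Matrix.det_diagonal, ← Matrix.det_of_isUpperTriangular (show Matrix.BlockTriangular g.1 id from hgu)]
    exact g.2⟩
  have htu : t⁻¹ * g ∈ upperUni K n := by
    have ht : IsUpper t := fun a b h => Matrix.diagonal_apply_ne _ h.ne'
    have hti : IsUpper t⁻¹ := by
      rw [inv_eq_pow]
      induction (orderOf t - 1) with
      | zero => exact fun a b h => by simp [Matrix.one_apply_ne h.ne']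
      | succ m ih => rw [pow_succ]; exact (mul_entry ih ht).1
    refine mem_upperUni.2 ⟨(mul_entry hti hgu).1, fun a => ?_⟩
    have h1 := (mul_entry hti ht).2 a
    rw [inv_mul_cancel] at h1
    have h2 : (1 : K) = (t⁻¹ : SLnK).1 a a * g.1 a a := by
      simpa [t] using h1
    rw [(mul_entry hti hgu).2 a, ← h2]
  have htE : ∀ x ∈ rootHull H, g * x * g⁻¹ ∈ rootHull H := by
    intro x hx
    have hgen : t * x * t⁻¹ ∈ rootHull H → True := fun _ => trivial
    have hconj : ∀ y ∈ rootHull H, t * y * t⁻¹ ∈ rootHull H := by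
      intro y hy
      induction hy using Subgroup.closure_induction with
      | mem y hy =>
        obtain ⟨a, b, hab, c, hR, rfl⟩ := hy
        have : t * Matrix.SpecialLinearGroup.transvection hab c * t⁻¹ =
            Matrix.SpecialLinearGroup.transvection hab (g.1 a a * c / g.1 b b) := by
          rw [mul_inv_eq_iff_eq_mul]
          refine Subtype.ext ?_
          show t.1 * (Matrix.SpecialLinearGroup.transvection hab c).1 =
            (Matrix.SpecialLinearGroup.transvection hab _).1 * t.1
          rw [Matrix.SpecialLinearGroup.transvection_coe, Matrix.SpecialLinearGroup.transvection_coe, mul_add, mul_one, add_mul, one_mul]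
          congr 1
          ext p q
          simp only [t, Matrix.diagonal_mul, Matrix.mul_diagonal, Matrix.single_apply]
          by_cases hpq : a = p ∧ b = q
          · obtain ⟨rfl, rfl⟩ := hpq
            simp [div_mul_cancel₀ _ (hd0 b)]
          · simp [hpq]
        rw [this]
        exact Subgroup.subset_closure ⟨a, b, hab, _, hR, rfl⟩
      | one => simp
      | mul a b _ _ ha hb =>
        have := mul_mem ha hb
        simpa [mul_assoc] using this
      | inv a _ ha =>
        have := inv_mem ha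
        simpa [mul_assoc] using this
    have hu := hEU htu
    have := hconj _ (mul_mem (mul_mem hu hx) (inv_mem hu))
    simpa [mul_assoc] using this
  refine Subgroup.mem_normalizer_iff_map_conj_eq.2 (Subgroup.eq_of_le_of_card_ge ?_
    (by rw [Subgroup.card_map_of_injective (MulAut.conj g).injective]))
  rintro _ ⟨h, hh, rfl⟩
  show g * h * g⁻¹ ∈ H
  -- move `h` into the normaliser of the unitriangular group
  have hconjU : ((h • P : Sylow p SLnK) : Subgroup SLnK) ≤ rootHull H := by
    rw [Sylow.coe_subgroup_smul, hP]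
    rintro _ ⟨y, hy, rfl⟩
    show h * y * h⁻¹ ∈ rootHull H
    have := upperUni_le_closure hy
    clear hy
    induction this using Subgroup.closure_induction with
    | mem y hy => obtain ⟨a, b, hab, c, rfl⟩ := hy; exact conj_upper_mem hU hh hab c
    | one => simp
    | mul a b _ _ ha hb => simpa [mul_assoc] using mul_mem ha hb
    | inv a _ ha => simpa [mul_assoc] using inv_mem ha
  obtain ⟨⟨e, he⟩, heq⟩ := MulAction.exists_smul_eq (rootHull H)
    (P.subtype (hP ▸ hEU : (P : Subgroup SLnK) ≤ rootHull H)) ((h • P).subtype hconjU)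
  rw [Sylow.smul_subtype] at heq
  have heq' : e • P = h • P := Sylow.subtype_injective heq
  have hmU : e⁻¹ * h ∈ Subgroup.normalizer (upperUni K n : Set SLnK) := by
    have : e⁻¹ * h ∈ Subgroup.normalizer ((P : Subgroup SLnK) : Set SLnK) :=
      Sylow.smul_eq_iff_mem_normalizer.1 (by rw [mul_smul, ← heq', inv_smul_smul])
    rwa [hP] at this
  set m := e⁻¹ * h with hm
  have hmH : m ∈ H := mul_mem (inv_mem (rootHull_le H he)) hh
  have hmu : IsUpper m := isUpper_of_conj_mem fun u hu => (Subgroup.mem_normalizer_iff.1 hmU u).1 hu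
  have hgi : IsUpper g⁻¹ := isUpper_of_conj_mem fun u hu =>
    (Subgroup.mem_normalizer_iff.1 (inv_mem hg) u).1 hu
  have hmi : IsUpper m⁻¹ := isUpper_of_conj_mem fun u hu =>
    (Subgroup.mem_normalizer_iff.1 (inv_mem hmU) u).1 hu
  have hcomm : g * m * g⁻¹ * m⁻¹ ∈ upperUni K n := by
    refine mem_upperUni.2 ⟨(mul_entry (mul_entry (mul_entry hgu hmu).1 hgi).1 hmi).1, fun a => ?_⟩
    have h1 := (mul_entry hgu hgi).2 a
    have h2 := (mul_entry hmu hmi).2 a
    rw [mul_inv_cancel] at h1 h2
    rw [(mul_entry (mul_entry (mul_entry hgu hmu).1 hgi).1 hmi).2 a,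
      (mul_entry (mul_entry hgu hmu).1 hgi).2 a, (mul_entry hgu hmu).2 a]
    simp only [Matrix.SpecialLinearGroup.coe_one, Matrix.one_apply_eq] at h1 h2
    linear_combination h1.symm * (m.1 a a * (m⁻¹ : SLnK).1 a a) + h2.symm
  have e1 : g * h * g⁻¹ = (g * e * g⁻¹) * ((g * m * g⁻¹ * m⁻¹) * m) := by rw [hm]; group
  rw [e1]
  exact mul_mem (rootHull_le H (htE e he)) (mul_mem (hU hcomm) hmH)

end CfsgLib.PronPSL
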